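import Cfsg.Agent.H748.PalfyD

/-!
# Two disjoint edges: the case of a minimal normal `t'`-subgroup (helper988)
-/

set_option autoImplicit false
set_option linter.unusedSectionVars false

namespace Cfsg.Agent.H988.DG.Solv

open Cfsg Cfsg.Agent.Characters.Core Cfsg.Agent.OddOrderCharacters.IndRes
  Cfsg.Agent.OddOrderCharacters.NormalInduced Cfsg.Agent.OddOrderCharacters.PF9.CliffGen
  Cfsg.Agent.H681.DegBasic Cfsg.Agent.H748.Palfy
open Cfsg.Agent.H273.Palfy (UniqueSylow)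

universe u v

/-- interface: the linear group lemma (task 1727) -/
def LemZ : Prop :=
  ∀ (H : Type u) [Group H] [Finite H] (V : Type v) [CommGroup V] [Finite V] [Nontrivial V]
    [MulDistribMulAction H V] (a b ℓ r s : ℕ) [Fact a.Prime] [Fact b.Prime] [Fact ℓ.Prime],
    Group.IsSolvable H → a ≠ b → (∀ v : V, v ^ ℓ = 1) →
    (∀ W : Subgroup V, (∀ h : H, ∀ w ∈ W, h • w ∈ W) → W = ⊥ ∨ W = ⊤) →
    UniqueSylow a H V → UniqueSylow b H V →
    (∃ A : Sylow a H, ∃ h ∈ (A : Subgroup H), ∃ v : V, h • v ≠ v) →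
    (∃ B : Sylow b H, ∃ h ∈ (B : Subgroup H), ∃ v : V, h • v ≠ v) →
    a ≠ r → a ≠ s → b ≠ r → b ≠ s →
    (∀ x : ℕ, x.Prime → x ∣ Nat.card (Sylow a H) → x = r ∨ x = s) →
    (∀ x : ℕ, x.Prime → x ∣ Nat.card (Sylow b H) → x = r ∨ x = s) → False

/-- a solvable group all of whose degrees are `{t, s}`-numbers or `{a, b}`-numbers, all four primes occurring -/
structure YC (G : Type u) [Group G] (t s a b : ℕ) : Prop where
  solv : Group.IsSolvable G
  dt : ∃ d ∈ charDegrees G, t ∣ d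
  ds : ∃ d ∈ charDegrees G, s ∣ d
  da : ∃ d ∈ charDegrees G, a ∣ d
  db : ∃ d ∈ charDegrees G, b ∣ d
  deg : ∀ d ∈ charDegrees G, (∀ x : ℕ, x.Prime → x ∣ d → x = t ∨ x = s) ∨ (∀ x : ℕ, x.Prime → x ∣ d → x = a ∨ x = b)
  ts : t ≠ s
  ab : a ≠ b
  ta : t ≠ a
  tb : t ≠ b
  sa : s ≠ a
  sb : s ≠ b

namespace YC

variable {G : Type u} [Group G] {t s a b : ℕ}

theorem swap (c : YC G t s a b) : YC G s t a b :=
  ⟨c.solv, c.ds, c.dt, c.da, c.db, fun d hd => (c.deg d hd).imp (fun h x hx hxd => (h x hx hxd).symm) id,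
    c.ts.symm, c.ab, c.sa, c.sb, c.ta, c.tb⟩

theorem swap' (c : YC G t s a b) : YC G t s b a :=
  ⟨c.solv, c.dt, c.ds, c.db, c.da, fun d hd => (c.deg d hd).imp id (fun h x hx hxd => (h x hx hxd).symm),
    c.ts, c.ab.symm, c.tb, c.ta, c.sb, c.sa⟩

theorem rot (c : YC G t s a b) : YC G a b t s :=
  ⟨c.solv, c.da, c.db, c.dt, c.ds, fun d hd => (c.deg d hd).symm,
    c.ab, c.ts, c.ta.symm, c.sa.symm, c.tb.symm, c.sb.symm⟩

theorem of_t (c : YC G t s a b) (ht : t.Prime) {d : ℕ} (hd : d ∈ charDegrees G) (htd : t ∣ d) :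
    ∀ x : ℕ, x.Prime → x ∣ d → x = t ∨ x = s := by
  rcases c.deg d hd with h | h
  · exact h
  · rcases h t ht htd with h1 | h1
    · exact absurd h1 c.ta
    · exact absurd h1 c.tb

theorem not_a (c : YC G t s a b) (ht : t.Prime) (ha : a.Prime) : ∀ d ∈ charDegrees G, t ∣ d → ¬ a ∣ d := by
  intro d hd htd had
  rcases c.of_t ht hd htd a ha had with h | h
  · exact c.ta h.symm
  · exact c.sa h.symm

theorem not_b (c : YC G t s a b) (ht : t.Prime) (hb : b.Prime) : ∀ d ∈ charDegrees G, t ∣ d → ¬ b ∣ d :=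
  c.swap'.not_a ht hb

end YC

section

variable {G : Type u} [Group G] [Finite G]

/-- the complement in the case of a minimal normal `t'`-subgroup; adapted from `Cfsg.Agent.H748.Palfy.caseA` -/
theorem caseA_split {t : ℕ} [ht : Fact t.Prime] (hsolv : Group.IsSolvable G) (hdt : ∃ d ∈ charDegrees G, t ∣ d)
    (N : Subgroup G) [hNn : N.Normal]
    (hN : ∀ x ∈ N, ∀ y ∈ N, x * y = y * x) (hN1 : N ≠ ⊥) (hmin : ∀ K : Subgroup G, K.Normal → K ≤ N → K = ⊥ ∨ K = N)
    (htN : ¬ t ∣ Nat.card N)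
    (hq : ∀ d ∈ charDegrees (G ⧸ N), ¬ t ∣ d) : ∃ H : Subgroup G, N ⊓ H = ⊥ ∧ N ⊔ H = ⊤ ∧
      ∀ l : ↥N →* ℂˣ, l ≠ 1 → t ∣ (stab N H (fun n => (l n : ℂ))).relIndex H := by
  classical
  let P : Sylow t G := default
  have hQ := ito_michler (X := G ⧸ N) inferInstance hq (P.mapSurjective (QuotientGroup.mk'_surjective N))
  have hQn : ((P : Subgroup G).map (QuotientGroup.mk' N)).Normal := hQ.1
  have hPNn : ((P : Subgroup G) ⊔ N).Normal := by
    have := hQn.comap (QuotientGroup.mk' N)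
    rwa [Subgroup.comap_map_eq, QuotientGroup.ker_mk'] at this
  have hPcN : ∀ x ∈ (P : Subgroup G), ∀ y ∈ (P : Subgroup G), x * y * x⁻¹ * y⁻¹ ∈ N := by
    intro x hx y hy
    have h1 := hQ.2 (QuotientGroup.mk' N x) ⟨x, hx, rfl⟩ (QuotientGroup.mk' N y) ⟨y, hy, rfl⟩
    rw [← QuotientGroup.ker_mk' N, MonoidHom.mem_ker]
    rw [map_mul, map_mul, map_mul, map_inv, map_inv, h1]
    group
  have hPN : N ⊓ (P : Subgroup G) = ⊥ := by
    apply disjoint_iff.1
    apply Subgroup.disjoint_of_coprime_natCard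
    obtain ⟨n, hn⟩ := IsPGroup.iff_card.1 P.isPGroup'
    have h3 : Nat.card (P : Subgroup G) = t ^ n := hn
    rw [h3]
    exact ((Nat.Prime.coprime_iff_not_dvd ht.out).2 htN).symm.pow_right n
  have hPc : ∀ x ∈ (P : Subgroup G), ∀ y ∈ (P : Subgroup G), x * y = y * x := by
    intro x hx y hy
    have h1 : x * y * x⁻¹ * y⁻¹ ∈ N ⊓ (P : Subgroup G) :=
      Subgroup.mem_inf.2 ⟨hPcN x hx y hy, (P : Subgroup G).mul_mem ((P : Subgroup G).mul_mem
        ((P : Subgroup G).mul_mem hx hy) ((P : Subgroup G).inv_mem hx)) ((P : Subgroup G).inv_mem hy)⟩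
    rw [hPN, Subgroup.mem_bot] at h1
    have h2 : x * y = (x * y * x⁻¹ * y⁻¹) * (y * x) := by group
    rw [h2, h1, one_mul]
  set H : Subgroup G := Subgroup.normalizer ((P : Subgroup G) : Set G) with hH
  have hPH : (P : Subgroup G) ≤ H := Subgroup.le_normalizer
  have hNH' : N ⊔ H = ⊤ := by
    have h1 := Sylow.normalizer_sup_eq_top' (N := (P : Subgroup G) ⊔ N) P le_sup_left
    rw [← sup_assoc, sup_eq_left.2 (show (P : Subgroup G) ≤ Subgroup.normalizer (P : Set G) from hPH)] at h1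
    rw [sup_comm]
    exact h1
  -- the centralizer of `P` in `N`
  have hconjH : ∀ h ∈ H, ∀ x ∈ (P : Subgroup G), h * x * h⁻¹ ∈ (P : Subgroup G) := by
    intro h hh x hx
    exact (Subgroup.mem_normalizer_iff.1 hh x).1 hx
  have hcomP : ∀ h ∈ H, ∀ n ∈ N, h * n * h⁻¹ ∈ N := fun h _ n hn => hNn.conj_mem n hn h
  have hCn : (N ⊓ Subgroup.centralizer ((P : Subgroup G) : Set G)).Normal := by
    constructor
    rintro x ⟨hxN, hxC⟩ g
    have hg : g ∈ H ⊔ N := by rw [sup_comm, hNH']; trivial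
    obtain ⟨h, hh, n, hn, rfl⟩ := Subgroup.mem_sup_of_normal_right.1 hg
    have h1 : h * n * x * (h * n)⁻¹ = h * x * h⁻¹ := by
      have : n * x = x * n := hN n hn x hxN
      calc h * n * x * (h * n)⁻¹ = h * (n * x) * n⁻¹ * h⁻¹ := by group
        _ = h * x * h⁻¹ := by rw [this]; group
    rw [h1]
    refine Subgroup.mem_inf.2 ⟨hNn.conj_mem x hxN h, ?_⟩
    rw [Subgroup.mem_centralizer_iff]
    intro y hy
    have hy' : h⁻¹ * y * h ∈ (P : Subgroup G) := by
      have := hconjH h⁻¹ (inv_mem hh) y hy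
      rwa [inv_inv] at this
    have h2 := Subgroup.mem_centralizer_iff.1 hxC _ hy'
    calc y * (h * x * h⁻¹) = h * ((h⁻¹ * y * h) * x) * h⁻¹ := by group
      _ = h * (x * (h⁻¹ * y * h)) * h⁻¹ := by rw [h2]
      _ = h * x * h⁻¹ * y := by group
  have hCbot : N ⊓ Subgroup.centralizer ((P : Subgroup G) : Set G) = ⊥ := by
    rcases hmin _ hCn inf_le_left with h | h
    · exact h
    · exfalso
      have hNC : N ≤ Subgroup.centralizer ((P : Subgroup G) : Set G) := inf_eq_left.1 h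
      have hNleH : N ≤ H := hNC.trans (Subgroup.centralizer_le_normalizer _)
      have hHtop : H = ⊤ := by rw [← hNH', sup_eq_right.2 hNleH]
      have hPn : (P : Subgroup G).Normal := Subgroup.normalizer_eq_top_iff.1 hHtop
      exact false_of_sylow P hPn hPc hdt
  have hNH : N ⊓ H = ⊥ := by
    rw [eq_bot_iff, ← hCbot]
    rintro x ⟨hxN, hxH⟩
    refine Subgroup.mem_inf.2 ⟨hxN, ?_⟩
    rw [Subgroup.mem_centralizer_iff]
    intro y hy
    have h1 : x * y * x⁻¹ * y⁻¹ ∈ N ⊓ (P : Subgroup G) := by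
      refine Subgroup.mem_inf.2 ⟨?_, (P : Subgroup G).mul_mem (hconjH x hxH y hy) ((P : Subgroup G).inv_mem hy)⟩
      have : x * y * x⁻¹ * y⁻¹ = x * (y * x⁻¹ * y⁻¹) := by group
      rw [this]
      exact mul_mem hxN (hNn.conj_mem _ (inv_mem hxN) y)
    rw [hPN, Subgroup.mem_bot] at h1
    have h2 : x * y = (x * y * x⁻¹ * y⁻¹) * (y * x) := by group
    rw [h2, h1, one_mul]
  -- `[N, P] = N`
  have hcomm : ∀ l : ↥N →* ℂˣ, (∀ x ∈ (P : Subgroup G), ∀ n : N, l ⟨x * n * x⁻¹, hNn.conj_mem n n.2 x⟩ = l n) → l = 1 := by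
    intro l hl
    -- the kernel-like subgroup
    let K : Subgroup G := Subgroup.closure {y | ∃ x ∈ (P : Subgroup G), ∃ n ∈ N, y = x * n * x⁻¹ * n⁻¹}
    have hKN : K ≤ N := by
      rw [Subgroup.closure_le]
      rintro y ⟨x, hx, n, hn, rfl⟩
      exact mul_mem (hNn.conj_mem n hn x) (inv_mem hn)
    have hKn : K.Normal := by
      constructor
      intro y hy g
      have hg : g ∈ H ⊔ N := by rw [sup_comm, hNH']; trivial
      obtain ⟨h, hh, n, hn, rfl⟩ := Subgroup.mem_sup_of_normal_right.1 hg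
      have h1 : h * n * y * (h * n)⁻¹ = h * y * h⁻¹ := by
        have : n * y = y * n := hN n hn y (hKN hy)
        calc h * n * y * (h * n)⁻¹ = h * (n * y) * n⁻¹ * h⁻¹ := by group
          _ = h * y * h⁻¹ := by rw [this]; group
      rw [h1]
      have h2 : K ≤ K.comap (MulAut.conj h).toMonoidHom := by
        rw [Subgroup.closure_le]
        rintro z ⟨x, hx, m, hm, rfl⟩
        apply Subgroup.subset_closure
        refine ⟨h * x * h⁻¹, hconjH h hh x hx, h * m * h⁻¹, hNn.conj_mem m hm h, ?_⟩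
        change h * (x * m * x⁻¹ * m⁻¹) * h⁻¹ = _
        group
      exact h2 hy
    rcases hmin K hKn hKN with h | h
    · exfalso
      have hle : N ≤ N ⊓ Subgroup.centralizer ((P : Subgroup G) : Set G) := by
        intro n hn
        refine Subgroup.mem_inf.2 ⟨hn, ?_⟩
        rw [Subgroup.mem_centralizer_iff]
        intro x hx
        have h1 : x * n * x⁻¹ * n⁻¹ ∈ K := Subgroup.subset_closure ⟨x, hx, n, hn, rfl⟩
        rw [h, Subgroup.mem_bot] at h1
        have h2 : x * n = (x * n * x⁻¹ * n⁻¹) * (n * x) := by group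
        rw [h2, h1, one_mul]
      rw [hCbot] at hle
      exact hN1 (le_bot_iff.1 hle)
    · have h3 : K ≤ (l.ker).map N.subtype := by
        rw [Subgroup.closure_le]
        rintro y ⟨x, hx, n, hn, rfl⟩
        refine ⟨⟨x * n * x⁻¹, hNn.conj_mem n hn x⟩ * (⟨n, hn⟩ : N)⁻¹, ?_, rfl⟩
        rw [SetLike.mem_coe, MonoidHom.mem_ker, map_mul, hl x hx ⟨n, hn⟩, map_inv, mul_inv_cancel]
      rw [h] at h3
      ext n
      obtain ⟨m, hm, hmn⟩ := h3 n.2
      have : m = n := Subtype.ext hmn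
      rw [← this, (MonoidHom.mem_ker).1 hm]
      rfl
  -- `t` divides the index of the stabilisers
  have hidx : ∀ l : ↥N →* ℂˣ, l ≠ 1 → t ∣ (stab N H (fun n => (l n : ℂ))).relIndex H := by
    intro l hl
    by_contra hnd
    apply hl
    apply hcomm
    -- the stabiliser contains the normal Sylow subgroup
    have hPHn : ((P.subtype hPH : Sylow t H) : Subgroup H).Normal := by
      rw [Sylow.coe_subtype]
      exact Subgroup.normal_in_normalizer
    have := Sylow.unique_of_normal _ hPHn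
    have hfi : ¬ t ∣ ((stab N H (fun n => (l n : ℂ))).subgroupOf H).index := hnd
    obtain ⟨R, hR⟩ : ∃ R : Sylow t H, (R : Subgroup H) ≤ (stab N H (fun n => (l n : ℂ))).subgroupOf H := by
      let R0 : Sylow t ↥((stab N H (fun n => (l n : ℂ))).subgroupOf H) := default
      have hcard : Nat.card ((R0 : Subgroup _).map ((stab N H (fun n => (l n : ℂ))).subgroupOf H).subtype) =
          t ^ (Nat.card H).factorization t := by
        rw [Subgroup.card_map_of_injective (Subgroup.subtype_injective _), R0.card_eq_multiplicity]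
        have h1 : (Nat.card H).factorization t = (Nat.card ((stab N H (fun n => (l n : ℂ))).subgroupOf H)).factorization t := by
          rw [← ((stab N H (fun n => (l n : ℂ))).subgroupOf H).card_mul_index,
            Nat.factorization_mul Nat.card_pos.ne' (Subgroup.index_ne_zero_of_finite), Finsupp.add_apply,
            Nat.factorization_eq_zero_of_not_dvd hfi, add_zero]
        rw [h1]
      refine ⟨Sylow.ofCard _ hcard, ?_⟩
      rw [Sylow.coe_ofCard]
      exact Subgroup.map_subtype_le _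
    have hRP : R = P.subtype hPH := Subsingleton.elim _ _
    intro x hx n
    have h1 : (⟨x, hPH hx⟩ : H) ∈ (R : Subgroup H) := by
      rw [hRP, Sylow.coe_subtype, Subgroup.mem_subgroupOf]
      exact hx
    have h2 := (mem_stab.1 (Subgroup.mem_subgroupOf.1 (hR h1))).2 n
    exact Units.ext h2
  exact ⟨H, hNH, hNH', hidx⟩

/-- the number of Sylow subgroups divides the index of a subgroup which contains exactly one -/
theorem sylow_dvd_relIndex {S H : Subgroup G} {p : ℕ} [Fact p.Prime] (A : Sylow p ↥H)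
    (hA : ∀ x ∈ (A : Subgroup H), (x : G) ∈ S)
    (huniq : ∀ B : Sylow p ↥H, (∀ x ∈ (B : Subgroup H), (x : G) ∈ S) → B = A) :
    Nat.card (Sylow p ↥H) ∣ S.relIndex H := by
  have h1 : S.subgroupOf H ≤ Subgroup.normalizer ((A : Subgroup H) : Set H) := by
    intro g hg
    rw [Subgroup.mem_subgroupOf] at hg
    apply Sylow.smul_eq_iff_mem_normalizer.1
    apply huniq
    intro x hx
    rw [Sylow.coe_subgroup_smul, Subgroup.mem_pointwise_smul_iff_inv_smul_mem, ← map_inv, MulAut.smul_def,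
      MulAut.conj_apply, inv_inv] at hx
    have h2 := hA _ hx
    have h3 : (x : G) = g * ((g⁻¹ * x * g : H) : G) * (g : G)⁻¹ := by
      change (x : G) = g * ((g : G)⁻¹ * x * g) * (g : G)⁻¹
      group
    rw [h3]
    exact S.mul_mem (S.mul_mem hg h2) (S.inv_mem hg)
  have h2 := Subgroup.index_dvd_of_le h1
  rw [Sylow.card_eq_index_normalizer A]
  exact h2

theorem sylow_dvd_of_unique {N H : Subgroup G} [hNn : N.Normal] {p : ℕ} [Fact p.Prime]
    (hu : letI := linAct N H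
      UniqueSylow p ↥H (↥N →* ℂˣ)) {l : ↥N →* ℂˣ} (hl : l ≠ 1) :
    Nat.card (Sylow p ↥H) ∣ (stab N H (fun n => (l n : ℂ))).relIndex H := by
  let _ := linAct N H
  obtain ⟨A, -, h1, h2⟩ := hu l hl
  exact sylow_dvd_relIndex A (fun x hx => (smul_eq_iff N H x l).1 (h1 x hx))
    (fun B hB => h2 B fun x hx => (smul_eq_iff N H x l).2 (hB x hx))

theorem exists_lin_ne_one {N : Subgroup G} (hN : ∀ x ∈ N, ∀ y ∈ N, x * y = y * x) (hN1 : N ≠ ⊥) :
    ∃ l : ↥N →* ℂˣ, l ≠ 1 := by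
  by_contra hcon
  push Not at hcon
  apply hN1
  rw [eq_bot_iff]
  intro n hn
  have := eq_one_of_lin hN ⟨n, hn⟩ (fun l => by rw [hcon l]; rfl)
  exact congrArg Subtype.val this

/-- the case of a minimal normal subgroup of order prime to `t` -/
theorem caseA (hZ : LemZ.{u, u}) {t s a b : ℕ} [ht : Fact t.Prime] [ha : Fact a.Prime] [hb : Fact b.Prime]
    (c : YC G t s a b) (N : Subgroup G) [hNn : N.Normal]
    (hN : ∀ x ∈ N, ∀ y ∈ N, x * y = y * x) (hN1 : N ≠ ⊥) (hmin : ∀ K : Subgroup G, K.Normal → K ≤ N → K = ⊥ ∨ K = N)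
    {ℓ : ℕ} [hℓ : Fact ℓ.Prime] (hNℓ : ∀ x ∈ N, x ^ ℓ = 1) (htN : ¬ t ∣ Nat.card N)
    (hq : ∀ d ∈ charDegrees (G ⧸ N), ¬ t ∣ d) : False := by
  classical
  have hsolv := c.solv
  obtain ⟨H, hNH, hNH', hidx⟩ := caseA_split hsolv c.dt N hN hN1 hmin htN hq
  have huA : ∀ (p : ℕ), (∀ d ∈ charDegrees G, t ∣ d → ¬ p ∣ d) → ∀ l : ↥N →* ℂˣ, l ≠ 1 →
      ∀ b ∈ charDegrees ↥(stab N H (fun n => (l n : ℂ))), ¬ p ∣ (stab N H (fun n => (l n : ℂ))).relIndex H * b := by
    intro p hp l hl b hb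
    exact hp _ (degree_linear hNH hNH' l hb) (dvd_mul_of_dvd_left (hidx l hl) _)
  have uA := uniqueSylow_of hsolv N H (p := a) (huA a (c.not_a ht.out ha.out))
  have uB := uniqueSylow_of hsolv N H (p := b) (huA b (c.not_b ht.out hb.out))
  have nA : letI := linAct N H
      ∃ A : Sylow a H, ∃ h ∈ (A : Subgroup H), ∃ v : ↥N →* ℂˣ, h • v ≠ v := by
    by_contra hcon
    have h1 := normal_of_trivial hN hN1 uA hcon default
    exact false_of_central hN hNH hNH' default h1.1 h1.2.1 h1.2.2 c.da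
  have nB : letI := linAct N H
      ∃ A : Sylow b H, ∃ h ∈ (A : Subgroup H), ∃ v : ↥N →* ℂˣ, h • v ≠ v := by
    by_contra hcon
    have h1 := normal_of_trivial hN hN1 uB hcon default
    exact false_of_central hN hNH hNH' default h1.1 h1.2.1 h1.2.2 c.db
  have hfin : Finite (↥N →* ℂˣ) := Nat.finite_of_card_ne_zero (by rw [card_lin hN]; exact Nat.card_pos.ne')
  have hnt : Nontrivial (↥N →* ℂˣ) := by
    rw [← Finite.one_lt_card_iff_nontrivial, card_lin hN]
    exact (Subgroup.one_lt_card_iff_ne_bot N).2 hN1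
  obtain ⟨l, hl⟩ := exists_lin_ne_one hN hN1
  have hprim : ∀ k : ℕ, k ∣ (stab N H (fun n => (l n : ℂ))).relIndex H → ∀ x : ℕ, x.Prime → x ∣ k → x = t ∨ x = s := by
    intro k hk x hx hxk
    have h1 := degree_linear hNH hNH' l (one_mem (G := ↥(stab N H (fun n => (l n : ℂ)))))
    rw [mul_one] at h1
    exact c.of_t ht.out h1 (hidx l hl) x hx (hxk.trans hk)
  have pA := hprim _ (sylow_dvd_of_unique uA hl)
  have pB := hprim _ (sylow_dvd_of_unique uB hl)
  let _ := linAct N H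
  exact hZ ↥H (↥N →* ℂˣ) a b ℓ t s inferInstance c.ab (fun v => by
      ext n
      have h1 : n ^ ℓ = 1 := Subtype.ext (hNℓ n n.2)
      rw [MonoidHom.pow_apply, ← map_pow, h1, map_one]
      rfl) (lin_irr (Or.inl hNH') hN hmin) uA uB nA nB c.ta.symm c.sa.symm c.tb.symm c.sb.symm pA pB

end

end Cfsg.Agent.H988.DG.Solv
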