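import Cfsg.Agent.H988.DG.SolvA

/-!
# Two disjoint edges: a minimal normal `t`-subgroup, tools adapted from `Cfsg.Agent.H748.PalfyC/PalfyD` (helper988)
-/

set_option autoImplicit false
set_option linter.unusedSectionVars false

namespace Cfsg.Agent.H988.DG.Solv

open Cfsg Cfsg.Agent.Characters.Core Cfsg.Agent.OddOrderCharacters.IndRes
  Cfsg.Agent.OddOrderCharacters.NormalInduced Cfsg.Agent.OddOrderCharacters.PF9.CliffGen
  Cfsg.Agent.H681.DegBasic Cfsg.Agent.H748.Palfy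
open scoped commutatorElement

universe u

section

variable {G : Type u} [Group G] [Finite G]

/-- the situation in case B -/
structure BX (t : ℕ) (P N H : Subgroup G) [P.Normal] [N.Normal] : Prop where
  solv : Group.IsSolvable G
  hP : IsPGroup t P
  hPH : P ⊓ H = ⊥
  hPH' : P ⊔ H = ⊤
  hcop : (Nat.card P).Coprime (Nat.card H)
  hNP : N ≤ P
  hPcN : ∀ x ∈ P, ∀ y ∈ P, x * y * x⁻¹ * y⁻¹ ∈ N
  hNz : ∀ x ∈ P, ∀ n ∈ N, x * n = n * x
  hN1 : N ≠ ⊥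
  hmin : ∀ K : Subgroup G, K.Normal → K ≤ N → K = ⊥ ∨ K = N
  hNt : ∀ x ∈ N, x ^ t = 1
  hna : ∃ x ∈ P, ∃ y ∈ P, x * y ≠ y * x

variable {t : ℕ} {P N H : Subgroup G} [hPn : P.Normal] [hNn : N.Normal]

theorem BX.hN (B : BX t P N H) : ∀ x ∈ N, ∀ y ∈ N, x * y = y * x :=
  fun x hx y hy => B.hNz x (B.hNP hx) y hy

/-- the commutators generate `N`. -/
theorem BX.lin_eq_one (B : BX t P N H) (l : ↥N →* ℂˣ)
    (hl : ∀ x (hx : x ∈ P) y (hy : y ∈ P), l ⟨x * y * x⁻¹ * y⁻¹, B.hPcN x hx y hy⟩ = 1) : l = 1 := by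
  let K : Subgroup G := Subgroup.closure {z | ∃ x ∈ P, ∃ y ∈ P, z = x * y * x⁻¹ * y⁻¹}
  have hKN : K ≤ N := by
    rw [Subgroup.closure_le]
    rintro z ⟨x, hx, y, hy, rfl⟩
    exact B.hPcN x hx y hy
  have hKn : K.Normal := by
    constructor
    intro z hz g
    have h2 : K ≤ K.comap (MulAut.conj g).toMonoidHom := by
      rw [Subgroup.closure_le]
      rintro z ⟨x, hx, m, hm, rfl⟩
      apply Subgroup.subset_closure
      refine ⟨g * x * g⁻¹, hPn.conj_mem x hx g, g * m * g⁻¹, hPn.conj_mem m hm g, ?_⟩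
      change g * (x * m * x⁻¹ * m⁻¹) * g⁻¹ = _
      group
    exact h2 hz
  rcases B.hmin K hKn hKN with h | h
  · exfalso
    obtain ⟨x, hx, y, hy, hxy⟩ := B.hna
    apply hxy
    have h1 : x * y * x⁻¹ * y⁻¹ ∈ K := Subgroup.subset_closure ⟨x, hx, y, hy, rfl⟩
    rw [h, Subgroup.mem_bot] at h1
    have h2 : x * y = (x * y * x⁻¹ * y⁻¹) * (y * x) := by group
    rw [h2, h1, one_mul]
  · have h3 : K ≤ (l.ker).map N.subtype := by
      rw [Subgroup.closure_le]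
      rintro z ⟨x, hx, y, hy, rfl⟩
      exact ⟨⟨x * y * x⁻¹ * y⁻¹, B.hPcN x hx y hy⟩, (MonoidHom.mem_ker).2 (hl x hx y hy), rfl⟩
    rw [h] at h3
    ext n
    obtain ⟨m, hm, hmn⟩ := h3 n.2
    have : m = n := Subtype.ext hmn
    rw [← this, (MonoidHom.mem_ker).1 hm]
    rfl

/-- characters over a nonprincipal character of `N` have degree divisible by `t` -/
theorem BX.dvd_degree [ht : Fact t.Prime] (B : BX t P N H) {l : ↥N →* ℂˣ} (hl : l ≠ 1) {θ : P → ℂ}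
    (hθ : IsIrrCharacter P θ) (hθl : ∀ n : N, θ ⟨n, B.hNP n.2⟩ = θ 1 * l n) : t ∣ charDegree θ := by
  rcases H670.PSing.charDegree_pgroup B.hP hθ with h | h
  · exfalso
    obtain ⟨f, hf⟩ : ∃ f : P →* ℂˣ, θ = fun x => (f x : ℂ) := by
      apply Characters.Linear.exists_hom_of_isIrrCharacter hθ
      rw [Cfsg.Agent.Blocks.Basic.irr_one_eq_charDegree hθ, h, Nat.cast_one]
    apply hl
    apply B.lin_eq_one
    intro x hx y hy
    have h1 := hθl ⟨x * y * x⁻¹ * y⁻¹, B.hPcN x hx y hy⟩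
    rw [hf] at h1
    have h2 : f (⟨x * y * x⁻¹ * y⁻¹, B.hNP (B.hPcN x hx y hy)⟩ : P) = 1 := by
      have : (⟨x * y * x⁻¹ * y⁻¹, B.hNP (B.hPcN x hx y hy)⟩ : P) = ⟨x, hx⟩ * ⟨y, hy⟩ * (⟨x, hx⟩ : P)⁻¹ * (⟨y, hy⟩ : P)⁻¹ := rfl
      rw [this, map_mul, map_mul, map_mul, map_inv, map_inv, mul_comm (f ⟨x, hx⟩)]
      group
    simp only [h2, map_one, Units.val_one, one_mul] at h1
    exact Units.ext h1.symm
  · exact h

/-- over every linear character of `N` there is an irreducible character of `P` with the same stabiliser in `H` -/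
theorem BX.exists_theta [ht : Fact t.Prime] (B : BX t P N H) (l : ↥N →* ℂˣ) :
    ∃ θ : P → ℂ, IsIrrCharacter P θ ∧ (∀ n : N, θ ⟨n, B.hNP n.2⟩ = θ 1 * l n) ∧
      stab P H θ = stab N H (fun n => (l n : ℂ)) := by
  classical
  have := Fintype.ofFinite G
  have := Fintype.ofFinite P
  have := Fintype.ofFinite N
  have hsolv := B.solv
  have hcop' : (N.relIndex P).Coprime (Nat.card ↥(stab N H (fun n => (l n : ℂ)))) := by
    have h1 : N.relIndex P ∣ Nat.card P := Subgroup.index_dvd_card (N.subgroupOf P)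
    have h2 : Nat.card ↥(stab N H (fun n => (l n : ℂ))) ∣ Nat.card H := Subgroup.card_dvd_of_le (stab_le _ _ _)
    exact (B.hcop.coprime_dvd_left h1).coprime_dvd_right h2
  have hN' : (N.subgroupOf P).Normal := hNn.subgroupOf P
  obtain ⟨χ, h1, h2⟩ := S4448.result P (stab N H (fun n => (l n : ℂ))) N
    (fun s _ g hg => hPn.conj_mem g hg s) B.hNP (fun s _ n hn => hNn.conj_mem n hn s) hcop'
    inferInstance ⟨fun n => (l n : ℂ), Characters.Linear.isIrrCharacter_hom l⟩ (by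
      intro s hs g g' hg
      have h3 := (mem_stab.1 hs).2 g
      change ((l g' : ℂˣ) : ℂ) = ((l g : ℂˣ) : ℂ)
      rw [← h3]
      congr 2
      exact Subtype.ext hg)
  have hover : ∀ n : N, (χ : P → ℂ) ⟨n, B.hNP n.2⟩ = (χ : P → ℂ) 1 * l n := by
    refine resTo_linear (T := P) (lam := l) ?_ B.hNP χ.2 h1
    intro g hg
    funext n
    rw [conjFn_apply]
    congr 2
    apply Subtype.ext
    change g * n * g⁻¹ = n
    rw [B.hNz g hg n n.2, mul_inv_cancel_right]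
  refine ⟨χ, χ.2, hover, le_antisymm ?_ ?_⟩
  · intro g hg
    obtain ⟨hg1, hg2⟩ := mem_stab.1 hg
    refine mem_stab.2 ⟨hg1, fun n => ?_⟩
    have h3 := hg2 ⟨n, B.hNP n.2⟩
    have h4 := hover ⟨g * n * g⁻¹, hNn.conj_mem n n.2 g⟩
    have h5 : (χ : P → ℂ) 1 * l ⟨g * n * g⁻¹, hNn.conj_mem n n.2 g⟩ = (χ : P → ℂ) 1 * l n := by
      rw [← h4, ← hover]
      exact h3
    exact mul_left_cancel₀ (isIrr_apply_one_ne_zero χ.2) h5
  · intro g hg
    refine mem_stab.2 ⟨stab_le _ _ _ hg, fun x => ?_⟩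
    exact h2 g hg x _ rfl

/-- degrees over `θ` -/
theorem BX.mem_degrees [Fact t.Prime] (B : BX t P N H) {θ : P → ℂ} (hθ : IsIrrCharacter P θ) {d' : ℕ}
    (hd' : d' ∈ charDegrees (stab P H θ)) : (stab P H θ).relIndex H * (d' * charDegree θ) ∈ charDegrees G :=
  degree_coprime B.hPH B.hPH' B.hcop hθ (Cfsg.Agent.Blocks.Basic.irr_one_eq_charDegree hθ) hd'

theorem BX.not_dvd [ht : Fact t.Prime] (B : BX t P N H) {p : ℕ} (hp : ∀ d ∈ charDegrees G, t ∣ d → ¬ p ∣ d)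
    (l : ↥N →* ℂˣ) (hl : l ≠ 1) : ∀ d ∈ charDegrees ↥(stab N H (fun n => (l n : ℂ))),
      ¬ p ∣ (stab N H (fun n => (l n : ℂ))).relIndex H * d := by
  intro d hd hpd
  obtain ⟨θ, hθ, hθl, hst⟩ := B.exists_theta l
  rw [← hst] at hd hpd
  have h1 := B.mem_degrees hθ hd
  have h2 : t ∣ (stab P H θ).relIndex H * (d * charDegree θ) :=
    dvd_mul_of_dvd_right (dvd_mul_of_dvd_right (B.dvd_degree hl hθ hθl) _) _
  refine hp _ h1 h2 ?_
  rw [← mul_assoc]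
  exact dvd_mul_of_dvd_left hpd _

/-- the normal Sylow `a`-subgroup `A` of `H` fixes the characters over nonprincipal characters of `N`. -/
theorem BX.fix [ht : Fact t.Prime] (B : BX t P N H) {p : ℕ} [hp' : Fact p.Prime]
    (hp : ∀ d ∈ charDegrees G, t ∣ d → ¬ p ∣ d) (A : Sylow p ↥H)
    (hA : (A : Subgroup H).Normal) {l : ↥N →* ℂˣ} (hl : l ≠ 1) {θ : P → ℂ}
    (hθ : IsIrrCharacter P θ) (hθl : ∀ n : N, θ ⟨n, B.hNP n.2⟩ = θ 1 * l n) :
    ∀ x ∈ (A : Subgroup H), (x : G) ∈ stab P H θ := by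
  by_contra hcon
  have h1 := dvd_relIndex A hA hcon
  exact hp _ (B.mem_degrees hθ one_mem)
    (dvd_mul_of_dvd_right (dvd_mul_of_dvd_right (B.dvd_degree hl hθ hθl) _) _) (dvd_mul_of_dvd_left h1 _)

theorem BX.star0 [Fact t.Prime] (B : BX t P N H) {l : ↥N →* ℂˣ} {θ : P → ℂ}
    (hθ : IsIrrCharacter P θ) (hθl : ∀ n : N, θ ⟨n, B.hNP n.2⟩ = θ 1 * l n) {α : G} (hα : α ∈ stab P H θ)
    (hαN : ∀ n ∈ N, α * n = n * α) {y : G} (hy : y ∈ P)
    (hly : ∀ x (hx : x ∈ P), l ⟨x * y * x⁻¹ * y⁻¹, B.hPcN x hx y hy⟩ = 1) :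
    θ (⟨α * y * α⁻¹ * y⁻¹, P.mul_mem (hPn.conj_mem y hy α) (P.inv_mem hy)⟩ : P) = θ 1 := by
  have h1 : ∀ x : P, θ (x * ⟨y, hy⟩ * x⁻¹ * (⟨y, hy⟩ : P)⁻¹) = θ 1 := by
    intro x
    have h2 := hθl ⟨x * y * (x : G)⁻¹ * y⁻¹, B.hPcN x x.2 y hy⟩
    rw [hly x x.2, Units.val_one, mul_one] at h2
    rw [← h2]
    rfl
  have hy' : α * y * α⁻¹ ∈ P := hPn.conj_mem y hy α
  have h3 : ∀ x : P, θ (x * ⟨α * y * α⁻¹, hy'⟩ * x⁻¹ * (⟨α * y * α⁻¹, hy'⟩ : P)⁻¹) = θ 1 := by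
    intro x
    have hx' : α⁻¹ * x * α ∈ P := by
      have := hPn.conj_mem x x.2 α⁻¹
      rwa [inv_inv] at this
    have h4 : ((x : G) * (α * y * α⁻¹) * (x : G)⁻¹ * (α * y * α⁻¹)⁻¹) =
        (α⁻¹ * x * α) * y * (α⁻¹ * x * α)⁻¹ * y⁻¹ := by
      have h5 := hαN _ (B.hPcN _ hx' y hy)
      calc ((x : G) * (α * y * α⁻¹) * (x : G)⁻¹ * (α * y * α⁻¹)⁻¹)
          = α * ((α⁻¹ * x * α) * y * (α⁻¹ * x * α)⁻¹ * y⁻¹) * α⁻¹ := by group
        _ = (α⁻¹ * x * α) * y * (α⁻¹ * x * α)⁻¹ * y⁻¹ := by rw [h5, mul_inv_cancel_right]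
    have h6 := hθl ⟨_, B.hPcN _ hx' y hy⟩
    rw [hly _ hx', Units.val_one, mul_one] at h6
    rw [← h6]
    congr 1
    exact Subtype.ext h4
  have h7 : θ ⟨α * y * α⁻¹, hy'⟩ = θ ⟨y, hy⟩ := (mem_stab.1 hα).2 ⟨y, hy⟩
  exact star_char hθ h1 h3 h7

/-- **(*)** -/
theorem BX.star [ht : Fact t.Prime] (B : BX t P N H) {p : ℕ} [hp' : Fact p.Prime]
    (hp : ∀ d ∈ charDegrees G, t ∣ d → ¬ p ∣ d) (A : Sylow p ↥H)
    (hA : (A : Subgroup H).Normal) (hAN : ∀ x ∈ (A : Subgroup H), ∀ n ∈ N, (x : G) * n = n * x)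
    {l : ↥N →* ℂˣ} (hl : l ≠ 1) {y : G} (hy : y ∈ P)
    (hly : ∀ x (hx : x ∈ P), l ⟨x * y * x⁻¹ * y⁻¹, B.hPcN x hx y hy⟩ = 1) :
    ∀ α ∈ (A : Subgroup H), (α : G) * y * (α : G)⁻¹ * y⁻¹ ∈ N := by
  intro α hα
  obtain ⟨θ, hθ, hθl, -⟩ := B.exists_theta l
  by_contra hcon
  set z : P := ⟨(α : G) * y * (α : G)⁻¹ * y⁻¹, P.mul_mem (hPn.conj_mem y hy α) (P.inv_mem hy)⟩ with hz
  have hN' : (N.subgroupOf P).Normal := hNn.subgroupOf P
  obtain ⟨μ, hμ1, hμ2⟩ := exists_lin (N.subgroupOf P)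
    (fun x y => Subgroup.mem_subgroupOf.2 (B.hPcN x x.2 y y.2)) (y := z)
    (fun h => hcon (Subgroup.mem_subgroupOf.1 h))
  have e1 := B.star0 hθ hθl (B.fix hp A hA hl hθ hθl α hα) (hAN α hα) hy hly
  have hθ' : IsIrrCharacter P (fun x => (μ x : ℂ) * θ x) :=
    Cfsg.Agent.OddOrderCharacters.InertiaAbelian.isIrr_mul_hom μ hθ
  have hθl' : ∀ n : N, (fun x => (μ x : ℂ) * θ x) ⟨n, B.hNP n.2⟩ = (fun x => (μ x : ℂ) * θ x) 1 * l n := by
    intro n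
    change (μ ⟨n, _⟩ : ℂ) * θ ⟨n, _⟩ = ((μ 1 : ℂˣ) : ℂ) * θ 1 * l n
    rw [hμ2 _ (Subgroup.mem_subgroupOf.2 n.2), map_one, Units.val_one, one_mul, one_mul, hθl]
  have e2 := B.star0 hθ' hθl' (B.fix hp A hA hl hθ' hθl' α hα) (hAN α hα) hy hly
  change (μ z : ℂ) * θ z = ((μ 1 : ℂˣ) : ℂ) * θ 1 at e2
  change θ z = θ 1 at e1
  rw [e1, map_one, Units.val_one, one_mul] at e2
  apply hμ1
  have h3 : (μ z : ℂ) = 1 := mul_right_cancel₀ (isIrr_apply_one_ne_zero hθ) (by rw [e2, one_mul])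
  exact Units.ext h3

theorem BX.cop (B : BX t P N H) {α : G} (hα : α ∈ H) : (orderOf α).Coprime (Nat.card P) := by
  have h1 : orderOf α ∣ Nat.card H := by
    have := orderOf_dvd_natCard (⟨α, hα⟩ : H)
    rwa [Subgroup.orderOf_mk] at this
  exact B.hcop.symm.coprime_dvd_left h1

theorem BX.commute_of_mem (B : BX t P N H) {α : G} (hα : α ∈ H) (hαN : ∀ n ∈ N, α * n = n * α) {y : G}
    (h : α * y * α⁻¹ * y⁻¹ ∈ N) : α * y = y * α := by
  have h1 : ⁅y, α⁆ ∈ N := by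
    have : ⁅y, α⁆ = (α * y * α⁻¹ * y⁻¹)⁻¹ := by rw [commutatorElement_def]; group
    rw [this]
    exact N.inv_mem h
  have h2 := Lib.CoprimeStab.commute_of_commutator_commute (H := N)
    ((B.cop hα).coprime_dvd_right (Subgroup.card_dvd_of_le B.hNP)) h1 (hαN _ h1).symm
  exact h2.eq.symm

/-- a normal abelian Sylow `p`-subgroup of `H` does not centralise `P`. -/
theorem BX.not_central (B : BX t P N H) {p : ℕ} [hp : Fact p.Prime] (hpP : ¬ p ∣ Nat.card P)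
    (hd : ∃ d ∈ charDegrees G, p ∣ d) (A : Sylow p ↥H)
    (hA : (A : Subgroup H).Normal) (hAc : IsMulCommutative ↥(A : Subgroup H)) :
    ¬ ∀ x ∈ (A : Subgroup H), ∀ y ∈ P, (x : G) * y = y * x := by
  intro hAP
  let C : Subgroup G := (A : Subgroup H).map H.subtype
  have hmem : ∀ x ∈ C, ∃ hx : x ∈ H, (⟨x, hx⟩ : H) ∈ (A : Subgroup H) := by
    rintro x ⟨y, hy, rfl⟩
    exact ⟨y.2, hy⟩
  have hCc : ∀ x ∈ C, ∀ y ∈ C, x * y = y * x := by
    intro x hx y hy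
    obtain ⟨h1, h2⟩ := hmem x hx
    obtain ⟨h3, h4⟩ := hmem y hy
    have := hAc.is_comm.comm (⟨⟨x, h1⟩, h2⟩ : (A : Subgroup H)) ⟨⟨y, h3⟩, h4⟩
    exact congrArg (fun z : (A : Subgroup H) => ((z : H) : G)) this
  have hCn : C.Normal := by
    constructor
    intro x hx g
    have hg : g ∈ H ⊔ P := by rw [sup_comm, B.hPH']; trivial
    obtain ⟨h, hh, n, hn, rfl⟩ := Subgroup.mem_sup_of_normal_right.1 hg
    obtain ⟨h2, h3⟩ := hmem x hx
    have h1 : h * n * x * (h * n)⁻¹ = h * x * h⁻¹ := by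
      have : n * x = x * n := (hAP _ h3 n hn).symm
      calc h * n * x * (h * n)⁻¹ = h * (n * x) * n⁻¹ * h⁻¹ := by group
        _ = h * x * h⁻¹ := by rw [this]; group
    rw [h1]
    exact ⟨_, hA.conj_mem _ h3 ⟨h, hh⟩, rfl⟩
  refine false_of_abelian hCn hCc (p := p) ?_ hd
  -- index
  have h1 : Nat.card C = Nat.card (A : Subgroup H) := Subgroup.card_map_of_injective H.subtype_injective
  have h2 : Nat.card P * Nat.card H = Nat.card G := by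
    have h3 := index_eq (M := P) (T := P) B.hPH B.hPH' le_rfl
    rw [B.hPH, Subgroup.relIndex_bot_left] at h3
    rw [← h3, Subgroup.card_mul_index]
  have h3 : C.index = Nat.card P * (A : Subgroup H).index := by
    have e1 := C.card_mul_index
    have e2 := (A : Subgroup H).card_mul_index
    rw [h1, ← h2, ← e2] at e1
    have h0 : 0 < Nat.card (A : Subgroup H) := Nat.card_pos
    apply Nat.eq_of_mul_eq_mul_left h0
    rw [e1]
    ring
  rw [h3]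
  intro h4
  rcases (Nat.Prime.dvd_mul hp.out).1 h4 with h5 | h5
  · exact hpP h5
  · exact A.not_dvd_index h5

/-- some linear character of `P` is moved. -/
theorem BX.exists_moved (B : BX t P N H) {p : ℕ} [hp : Fact p.Prime] (hpP : ¬ p ∣ Nat.card P)
    (hd : ∃ d ∈ charDegrees G, p ∣ d) (A : Sylow p ↥H)
    (hA : (A : Subgroup H).Normal) (hAc : IsMulCommutative ↥(A : Subgroup H))
    (hAN : ∀ x ∈ (A : Subgroup H), ∀ n ∈ N, (x : G) * n = n * x) :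
    ∃ μ : ↥P →* ℂˣ, ¬ ∀ x ∈ (A : Subgroup H), (x : G) ∈ stab P H (fun n => (μ n : ℂ)) := by
  by_contra hcon
  push Not at hcon
  apply B.not_central hpP hd A hA hAc
  intro x hx y hy
  apply B.commute_of_mem x.2 (hAN x hx)
  by_contra hnm
  have hN' : (N.subgroupOf P).Normal := hNn.subgroupOf P
  have hz : (x : G) * y * (x : G)⁻¹ * y⁻¹ ∈ P := P.mul_mem (hPn.conj_mem y hy x) (P.inv_mem hy)
  obtain ⟨μ, hμ1, hμ2⟩ := exists_lin (N.subgroupOf P)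
    (fun x y => Subgroup.mem_subgroupOf.2 (B.hPcN x x.2 y y.2)) (y := ⟨_, hz⟩)
    (fun h => hnm (Subgroup.mem_subgroupOf.1 h))
  apply hμ1
  have h1 := (mem_stab_lin.1 (hcon μ x hx)).2 ⟨y, hy⟩
  have h2 : (⟨(x : G) * y * (x : G)⁻¹ * y⁻¹, hz⟩ : P) = ⟨(x : G) * y * (x : G)⁻¹, hPn.conj_mem y hy x⟩ * (⟨y, hy⟩ : P)⁻¹ := rfl
  rw [h2, map_mul, map_inv]
  change μ ⟨(x : G) * y * (x : G)⁻¹, _⟩ * _ = 1
  rw [h1, mul_inv_cancel]

end

end Cfsg.Agent.H988.DG.Solv
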