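import Cfsg.Agent.H988.DG.SolvB
import Cfsg.Agent.H273.PalfyKP

/-!
# Two disjoint edges: group theory for the second case (helper988)
-/

set_option autoImplicit false
set_option linter.unusedSectionVars false

namespace Cfsg.Agent.H988.DG.Solv

open Cfsg Cfsg.Agent.Characters.Core Cfsg.Agent.OddOrderCharacters.IndRes
  Cfsg.Agent.OddOrderCharacters.NormalInduced Cfsg.Agent.OddOrderCharacters.PF9.CliffGen
  Cfsg.Agent.H681.DegBasic Cfsg.Agent.H748.Palfy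
open Cfsg.Agent.H273.Palfy (UniqueSylow)
open scoped commutatorElement

universe u v

section Fit

variable {Γ : Type u} [Group Γ] [Finite Γ]

theorem mem_pCore_of_commute (hsol : Group.IsSolvable Γ) {b : ℕ} [Fact b.Prime] {β : Γ} {k : ℕ}
    (hβ : β ^ b ^ k = 1) (hc : ∀ q : ℕ, q.Prime → ∀ g ∈ Cfsg.pCore q Γ, β * g = g * β) :
    β ∈ Cfsg.pCore b Γ := by
  have h1 : Cfsg.fittingSubgroup Γ ≤ Subgroup.centralizer ({β} : Set Γ) := by
    rw [Cfsg.Agent.Lib.Cores.fittingSubgroup_eq_iSup_pCore, iSup_le_iff]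
    intro s g hg
    rw [Subgroup.mem_centralizer_singleton_iff]
    exact (hc s s.2 g hg).symm
  have h2 : β ∈ Subgroup.centralizer (Cfsg.fittingSubgroup Γ : Set Γ) := by
    rw [Subgroup.mem_centralizer_iff]
    intro g hg
    exact Subgroup.mem_centralizer_singleton_iff.1 (h1 hg)
  have h3 := Cfsg.Agent.S0044.result h2
  exact Cfsg.Agent.Lib.GenFitting.mem_pCore_of_mem_fitting (p := b) h3 hβ

theorem pCore_bot_of_not_dvd {q : ℕ} (hq : q.Prime) (h : ¬ q ∣ Nat.card Γ) : Cfsg.pCore q Γ = ⊥ := by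
  have : Fact q.Prime := ⟨hq⟩
  obtain ⟨k, hk⟩ := IsPGroup.iff_card.1 (Cfsg.Agent.Lib.Cores.pCore_isPGroup (G := Γ) q)
  rcases Nat.eq_zero_or_pos k with h1 | h1
  · rw [h1, pow_zero] at hk
    exact Subgroup.card_eq_one.1 hk
  · exfalso
    apply h
    have h2 : q ∣ Nat.card (Cfsg.pCore q Γ) := by
      rw [hk]; exact dvd_pow_self q (by omega)
    exact h2.trans (Subgroup.card_subgroup_dvd_card _)

/-- the Sylow `b`-subgroup is normal -/
theorem sylow_b_normal {V : Type v} [CommGroup V] [Finite V] [Nontrivial V] [MulDistribMulAction Γ V]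
    (hsol : Group.IsSolvable Γ) (hf : ∀ h : Γ, (∀ v : V, h • v = v) → h = 1) {a b s : ℕ} [Fact a.Prime]
    [Fact b.Prime] [Fact s.Prime]
    (hpr : ∀ x : ℕ, x.Prime → x ∣ Nat.card Γ → x = a ∨ x = b ∨ x = s) (A : Sylow a Γ) (B : Sylow b Γ)
    (hBc : ∀ x ∈ (B : Subgroup Γ), ∀ y ∈ (B : Subgroup Γ), x * y = y * x)
    (hAB : ∀ x ∈ (A : Subgroup Γ), ∀ y ∈ (B : Subgroup Γ), x * y = y * x) (uS : UniqueSylow s Γ V) :
    (B : Subgroup Γ).Normal := by
  have h1 : (B : Subgroup Γ) ≤ Cfsg.pCore b Γ := by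
    intro β hβ
    obtain ⟨k, hk⟩ := B.isPGroup' ⟨β, hβ⟩
    refine mem_pCore_of_commute hsol (k := k) (by
      have := congrArg Subtype.val hk
      simpa using this) ?_
    intro q hq g hg
    have : Fact q.Prime := ⟨hq⟩
    by_cases hd : q ∣ Nat.card Γ
    · rcases hpr q hq hd with rfl | rfl | rfl
      · exact (hAB g (Cfsg.Agent.Lib.Cores.pCore_le_sylow A hg) β hβ).symm
      · exact hBc β hβ g (Cfsg.Agent.Lib.Cores.pCore_le_sylow B hg)
      · rw [Cfsg.Agent.H273.PalfyKP.pCore_eq_bot hf uS, Subgroup.mem_bot] at hg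
        rw [hg, mul_one, one_mul]
    · rw [pCore_bot_of_not_dvd hq hd, Subgroup.mem_bot] at hg
      rw [hg, mul_one, one_mul]
  have h2 : (B : Subgroup Γ) = Cfsg.pCore b Γ := le_antisymm h1 (Cfsg.Agent.Lib.Cores.pCore_le_sylow B)
  rw [h2]
  exact Cfsg.Agent.Lib.Cores.pCore_normal b

theorem sup_abelian {A B : Subgroup Γ} (hA : A.Normal)
    (hAc : ∀ x ∈ A, ∀ y ∈ A, x * y = y * x) (hBc : ∀ x ∈ B, ∀ y ∈ B, x * y = y * x)
    (hAB : ∀ x ∈ A, ∀ y ∈ B, x * y = y * x) : ∀ x ∈ A ⊔ B, ∀ y ∈ A ⊔ B, x * y = y * x := by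
  intro x hx y hy
  obtain ⟨n, hn, z, hz, rfl⟩ := Subgroup.mem_sup_of_normal_left.1 hx
  obtain ⟨n', hn', z', hz', rfl⟩ := Subgroup.mem_sup_of_normal_left.1 hy
  have e1 : Commute n n' := hAc n hn n' hn'
  have e2 : Commute z z' := hBc z hz z' hz'
  have e3 : Commute z n' := (hAB n' hn' z hz).symm
  have e4 : Commute n z' := hAB n hn z' hz'
  exact ((e1.mul_left e3).mul_right (e4.mul_left e2)).eq

theorem sup_index {a b s : ℕ} [Fact a.Prime] [Fact b.Prime]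
    (hpr : ∀ x : ℕ, x.Prime → x ∣ Nat.card Γ → x = a ∨ x = b ∨ x = s) (A : Sylow a Γ) (B : Sylow b Γ) :
    ∀ x : ℕ, x.Prime → x ∣ ((A : Subgroup Γ) ⊔ (B : Subgroup Γ)).index → x = s := by
  intro x hx hd
  rcases hpr x hx (hd.trans (Subgroup.index_dvd_card _)) with rfl | rfl | h
  · exact absurd (hd.trans (Subgroup.index_dvd_of_le le_sup_left)) A.not_dvd_index
  · exact absurd (hd.trans (Subgroup.index_dvd_of_le le_sup_right)) B.not_dvd_index
  · exact h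

theorem sup_card {a b s : ℕ} [ha : Fact a.Prime] [hb : Fact b.Prime] (hs : s.Prime) (hsa : s ≠ a) (hsb : s ≠ b)
    (A : Sylow a Γ) (B : Sylow b Γ) (hA : (A : Subgroup Γ).Normal) :
    ¬ s ∣ Nat.card ((A : Subgroup Γ) ⊔ (B : Subgroup Γ) : Subgroup Γ) := by
  intro hd
  have h1 : Nat.card ((A : Subgroup Γ) ⊔ (B : Subgroup Γ) : Subgroup Γ) ∣ Nat.card (A : Subgroup Γ) * Nat.card (B : Subgroup Γ) := by
    have e1 := Subgroup.relIndex_mul_relIndex ⊥ (A : Subgroup Γ) ((A : Subgroup Γ) ⊔ (B : Subgroup Γ)) bot_le le_sup_left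
    rw [Subgroup.relIndex_bot_left, Subgroup.relIndex_bot_left] at e1
    rw [← e1]
    apply mul_dvd_mul_left
    rw [sup_comm, Subgroup.relIndex_sup_right]
    exact Subgroup.relIndex_dvd_card _ _
  have h2 := hd.trans h1
  obtain ⟨i, hi⟩ := IsPGroup.iff_card.1 A.isPGroup'
  obtain ⟨j, hj⟩ := IsPGroup.iff_card.1 B.isPGroup'
  have hi' : Nat.card (A : Subgroup Γ) = a ^ i := hi
  have hj' : Nat.card (B : Subgroup Γ) = b ^ j := hj
  rw [hi', hj'] at h2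
  rcases hs.dvd_mul.1 h2 with h3 | h3
  · exact hsa ((Nat.prime_dvd_prime_iff_eq hs ha.out).1 (hs.dvd_of_dvd_pow h3))
  · exact hsb ((Nat.prime_dvd_prime_iff_eq hs hb.out).1 (hs.dvd_of_dvd_pow h3))

end Fit

section

variable {G : Type u} [Group G] [Finite G]

variable {t : ℕ} {P N H : Subgroup G} [hPn : P.Normal] [hNn : N.Normal]

/-- two normal Sylow subgroups of `H` which both move linear characters of `P` -/
theorem BX.degree_of_moved (B : BX t P N H) {a b : ℕ} [ha : Fact a.Prime] [hb : Fact b.Prime] (A : Sylow a ↥H)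
    (hA : (A : Subgroup H).Normal) (A' : Sylow b ↥H) (hA' : (A' : Subgroup H).Normal) {μ1 μ2 : ↥P →* ℂˣ}
    (h1 : ¬ ∀ x ∈ (A : Subgroup H), (x : G) ∈ stab P H (fun n => (μ1 n : ℂ)))
    (h2 : ¬ ∀ x ∈ (A' : Subgroup H), (x : G) ∈ stab P H (fun n => (μ2 n : ℂ))) :
    ∃ d ∈ charDegrees G, a ∣ d ∧ b ∣ d := by
  have key : ∀ (x : G), ∀ μ ν : ↥P →* ℂˣ, x ∈ stab P H (fun n => (μ n : ℂ)) →
      x ∈ stab P H (fun n => ((μ * ν) n : ℂ)) → x ∈ stab P H (fun n => (ν n : ℂ)) := by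
    intro x μ ν hμ hμν
    rw [mem_stab_lin] at hμ hμν ⊢
    refine ⟨hμ.1, fun y => ?_⟩
    have h3 := hμν.2 y
    rw [MonoidHom.mul_apply, MonoidHom.mul_apply, hμ.2 y] at h3
    exact mul_left_cancel h3
  obtain ⟨μ, hμ1, hμ2⟩ : ∃ μ : ↥P →* ℂˣ, (¬ ∀ x ∈ (A : Subgroup H), (x : G) ∈ stab P H (fun n => (μ n : ℂ))) ∧
      ¬ ∀ x ∈ (A' : Subgroup H), (x : G) ∈ stab P H (fun n => (μ n : ℂ)) := by
    by_cases h3 : ∀ x ∈ (A' : Subgroup H), (x : G) ∈ stab P H (fun n => (μ1 n : ℂ))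
    · by_cases h4 : ∀ x ∈ (A : Subgroup H), (x : G) ∈ stab P H (fun n => (μ2 n : ℂ))
      · refine ⟨μ1 * μ2, fun h5 => h1 fun x hx => ?_, fun h5 => h2 fun x hx => ?_⟩
        · exact key x μ2 μ1 (h4 x hx) (by rw [mul_comm μ2 μ1]; exact h5 x hx)
        · exact key x μ1 μ2 (h3 x hx) (h5 x hx)
      · exact ⟨μ2, h4, h2⟩
    · exact ⟨μ1, h1, h3⟩
  have h5 := degree_linear B.hPH B.hPH' μ (one_mem (G := ↥(stab P H (fun n => (μ n : ℂ)))))
  rw [mul_one] at h5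
  exact ⟨_, h5, dvd_relIndex A hA hμ1, dvd_relIndex A' hA' hμ2⟩

/-- an element of `H` fixing all linear characters of `P` centralises `P` -/
theorem BX.central_of_fix_lin (B : BX t P N H) {x : G} (hx : x ∈ H)
    (h : ∀ μ : ↥P →* ℂˣ, x ∈ stab P H (fun n => (μ n : ℂ))) : ∀ y ∈ P, x * y = y * x := by
  -- trivial on `P / N`
  have h1 : ∀ y ∈ P, x * y * x⁻¹ * y⁻¹ ∈ N := by
    intro y hy
    by_contra hnm
    have hN' : (N.subgroupOf P).Normal := hNn.subgroupOf P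
    have hz : x * y * x⁻¹ * y⁻¹ ∈ P := P.mul_mem (hPn.conj_mem y hy x) (P.inv_mem hy)
    obtain ⟨μ, hμ1, hμ2⟩ := exists_lin (N.subgroupOf P)
      (fun x y => Subgroup.mem_subgroupOf.2 (B.hPcN x x.2 y y.2)) (y := ⟨_, hz⟩)
      (fun h => hnm (Subgroup.mem_subgroupOf.1 h))
    apply hμ1
    have h1 := (mem_stab_lin.1 (h μ)).2 ⟨y, hy⟩
    have h2 : (⟨x * y * x⁻¹ * y⁻¹, hz⟩ : P) = ⟨x * y * x⁻¹, hPn.conj_mem y hy x⟩ * (⟨y, hy⟩ : P)⁻¹ := rfl
    rw [h2, map_mul, map_inv]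
    change μ ⟨x * y * x⁻¹, _⟩ * _ = 1
    rw [h1, mul_inv_cancel]
  -- trivial on `N`
  have h2 : ∀ n ∈ N, x * n = n * x := by
    refine comm_of_lin (H := H) B.hN x (fun l n => ?_)
    -- `l ∘ conj x / l` is trivial on commutators
    let m : ↥N →* ℂˣ := (l.comp (MulAut.conjNormal x : MulAut N).toMonoidHom) * l⁻¹
    have hm : m = 1 := by
      apply B.lin_eq_one
      intro u hu w hw
      have e0 : ∀ n : N, m n = l ⟨x * n * x⁻¹, hNn.conj_mem n n.2 x⟩ * (l n)⁻¹ := fun n => rfl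
      rw [e0]
      have e1 : (⟨x * (u * w * u⁻¹ * w⁻¹) * x⁻¹, hNn.conj_mem _ (B.hPcN u hu w hw) x⟩ : N) =
          ⟨u * w * u⁻¹ * w⁻¹, B.hPcN u hu w hw⟩ := by
        apply Subtype.ext
        change x * (u * w * u⁻¹ * w⁻¹) * x⁻¹ = u * w * u⁻¹ * w⁻¹
        obtain ⟨n1, hn1, e2⟩ : ∃ n ∈ N, x * u * x⁻¹ = n * u := ⟨_, h1 u hu, by group⟩
        obtain ⟨n2, hn2, e3⟩ : ∃ n ∈ N, x * w * x⁻¹ = n * w := ⟨_, h1 w hw, by group⟩
        have z1 : ∀ y ∈ P, y * n1 = n1 * y := fun y hy => B.hNz y hy n1 hn1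
        have z2 : ∀ y ∈ P, y * n2 = n2 * y := fun y hy => B.hNz y hy n2 hn2
        have e4 : x * (u * w * u⁻¹ * w⁻¹) * x⁻¹ = (x * u * x⁻¹) * (x * w * x⁻¹) * (x * u * x⁻¹)⁻¹ * (x * w * x⁻¹)⁻¹ := by
          group
        rw [e4, e2, e3]
        have c1 : Commute n1 u := (z1 u hu).symm
        have c2 : Commute n1 w := (z1 w hw).symm
        have c3 : Commute n2 u := (z2 u hu).symm
        have c4 : Commute n2 w := (z2 w hw).symm
        have c5 : Commute n1 n2 := (z1 n2 (B.hNP hn2)).symm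
        calc n1 * u * (n2 * w) * (n1 * u)⁻¹ * (n2 * w)⁻¹
            = n1 * (u * n2) * w * u⁻¹ * n1⁻¹ * (w⁻¹ * n2⁻¹) := by group
          _ = n1 * (n2 * u) * w * u⁻¹ * n1⁻¹ * (w⁻¹ * n2⁻¹) := by rw [c3.eq]
          _ = (n1 * n2) * ((u * w * u⁻¹) * n1⁻¹) * (w⁻¹ * n2⁻¹) := by group
          _ = (n1 * n2) * (n1⁻¹ * (u * w * u⁻¹)) * (w⁻¹ * n2⁻¹) := by
            have : Commute (u * w * u⁻¹) n1⁻¹ := (((c1.symm.mul_left c2.symm).mul_left c1.symm.inv_left)).inv_right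
            rw [this.eq]
          _ = (n1 * n2 * n1⁻¹) * (u * w * u⁻¹ * w⁻¹) * n2⁻¹ := by group
          _ = n2 * ((u * w * u⁻¹ * w⁻¹) * n2⁻¹) := by rw [c5.eq, mul_inv_cancel_right]; group
          _ = n2 * (n2⁻¹ * (u * w * u⁻¹ * w⁻¹)) := by
            have : Commute (u * w * u⁻¹ * w⁻¹) n2⁻¹ :=
              ((((c3.symm.mul_left c4.symm).mul_left c3.symm.inv_left)).mul_left c4.symm.inv_left).inv_right
            rw [this.eq]
          _ = u * w * u⁻¹ * w⁻¹ := by group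
      rw [e1, mul_inv_cancel]
    have h3 := DFunLike.congr_fun hm n
    change l ⟨x * n * x⁻¹, hNn.conj_mem n n.2 x⟩ * (l n)⁻¹ = 1 at h3
    exact mul_inv_eq_one.1 h3
  intro y hy
  exact B.commute_of_mem hx h2 (h1 y hy)

theorem BX.exists_moved' (B : BX t P N H) {p : ℕ} [hp : Fact p.Prime] (hpP : ¬ p ∣ Nat.card P)
    (hd : ∃ d ∈ charDegrees G, p ∣ d) (A : Sylow p ↥H)
    (hA : (A : Subgroup H).Normal) (hAc : IsMulCommutative ↥(A : Subgroup H)) :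
    ∃ μ : ↥P →* ℂˣ, ¬ ∀ x ∈ (A : Subgroup H), (x : G) ∈ stab P H (fun n => (μ n : ℂ)) := by
  by_contra hcon
  push Not at hcon
  apply B.not_central hpP hd A hA hAc
  intro x hx
  exact B.central_of_fix_lin x.2 fun μ => hcon μ x hx

/-- Sylow subgroups for primes which divide no degree centralise `P` -/
theorem BX.other_primes (B : BX t P N H) {x : ℕ} [hx : Fact x.Prime] (hxP : ¬ x ∣ Nat.card P)
    (hxd : ∀ d ∈ charDegrees G, ¬ x ∣ d) (Q : Sylow x ↥H) :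
    ∀ q ∈ (Q : Subgroup H), ∀ y ∈ P, (q : G) * y = y * q := by
  intro q hq y hy
  have h1 : IsPGroup x ((Q : Subgroup H).map H.subtype) := Q.isPGroup'.map _
  obtain ⟨R, hR⟩ := h1.exists_le_sylow
  have hsolv := B.solv
  have hRn := (ito_michler (X := G) inferInstance hxd R).1
  have h2 : (q : G) ∈ (R : Subgroup G) := hR ⟨q, hq, rfl⟩
  have h3 : (R : Subgroup G) ⊓ P = ⊥ := by
    apply disjoint_iff.1
    apply Subgroup.disjoint_of_coprime_natCard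
    obtain ⟨n, hn⟩ := IsPGroup.iff_card.1 R.isPGroup'
    have h3 : Nat.card (R : Subgroup G) = x ^ n := hn
    rw [h3]
    exact ((Nat.Prime.coprime_iff_not_dvd hx.out).2 hxP).pow_left n
  have h4 : (q : G) * y * (q : G)⁻¹ * y⁻¹ ∈ (R : Subgroup G) ⊓ P := by
    refine Subgroup.mem_inf.2 ⟨?_, P.mul_mem (hPn.conj_mem y hy q) (P.inv_mem hy)⟩
    have : (q : G) * y * (q : G)⁻¹ * y⁻¹ = q * (y * (q : G)⁻¹ * y⁻¹) := by group
    rw [this]
    exact (R : Subgroup G).mul_mem h2 (hRn.conj_mem _ ((R : Subgroup G).inv_mem h2) y)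
  rw [h3, Subgroup.mem_bot] at h4
  have h5 : (q : G) * y = (q * y * (q : G)⁻¹ * y⁻¹) * (y * q) := by group
  rw [h5, h4, one_mul]

end

end Cfsg.Agent.H988.DG.Solv
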