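import Cfsg.Agent.H988.DG.SolvC

/-!
# Two disjoint edges: the normal Sylow subgroup centralising `N` (helper988)
-/

set_option autoImplicit false
set_option linter.unusedSectionVars false

namespace Cfsg.Agent.H988.DG.Solv

open Cfsg Cfsg.Agent.Characters.Core Cfsg.Agent.OddOrderCharacters.IndRes
  Cfsg.Agent.OddOrderCharacters.NormalInduced Cfsg.Agent.OddOrderCharacters.PF9.CliffGen
  Cfsg.Agent.H681.DegBasic Cfsg.Agent.H748.Palfy
open Cfsg.Agent.H273.Palfy (UniqueSylow)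
open scoped commutatorElement

universe u v

section

variable {G : Type u} [Group G] [Finite G]

variable {t : ℕ} {P N H : Subgroup G} [hPn : P.Normal] [hNn : N.Normal]

/-- the centraliser in `P` of a subgroup of `H` -/
def Dc (P : Subgroup G) {H : Subgroup G} (A : Subgroup ↥H) : Subgroup ↥P where
  carrier := {y | ∀ x ∈ A, (x : G) * y = y * x}
  one_mem' := by
    intro x _
    rw [OneMemClass.coe_one, mul_one, one_mul]
  mul_mem' := by
    intro y z hy hz x hx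
    rw [Subgroup.coe_mul, ← mul_assoc, hy x hx, mul_assoc, hz x hx, mul_assoc]
  inv_mem' := by
    intro y hy x hx
    have h1 := hy x hx
    rw [Subgroup.coe_inv]
    calc (x : G) * (y : G)⁻¹ = (y : G)⁻¹ * ((y : G) * x) * (y : G)⁻¹ := by group
      _ = (y : G)⁻¹ * ((x : G) * y) * (y : G)⁻¹ := by rw [h1]
      _ = (y : G)⁻¹ * x := by group

theorem mem_Dc {A : Subgroup ↥H} {y : ↥P} : y ∈ Dc P A ↔ ∀ x ∈ A, (x : G) * y = y * x := Iff.rfl

/-- the linear characters of `P` trivial on `D` -/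
def Vc (D : Subgroup ↥P) : Subgroup (↥P →* ℂˣ) where
  carrier := {μ | ∀ k ∈ D, μ k = 1}
  one_mem' := fun k _ => rfl
  mul_mem' := by
    intro μ ν hμ hν k hk
    rw [MonoidHom.mul_apply, hμ k hk, hν k hk, one_mul]
  inv_mem' := by
    intro μ hμ k hk
    rw [MonoidHom.inv_apply, hμ k hk, inv_one]

theorem mem_Vc {D : Subgroup ↥P} {μ : ↥P →* ℂˣ} : μ ∈ Vc D ↔ ∀ k ∈ D, μ k = 1 := Iff.rfl

/-- the centraliser of `D` in `P` -/
def Uc (D : Subgroup ↥P) : Subgroup ↥P where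
  carrier := {y | ∀ d ∈ D, d * y = y * d}
  one_mem' := by
    intro x _
    rw [mul_one, one_mul]
  mul_mem' := by
    intro y z hy hz x hx
    rw [← mul_assoc, hy x hx, mul_assoc, hz x hx, mul_assoc]
  inv_mem' := by
    intro y hy x hx
    have h1 := hy x hx
    calc x * y⁻¹ = y⁻¹ * (y * x) * y⁻¹ := by group
      _ = y⁻¹ * (x * y) * y⁻¹ := by rw [h1]
      _ = y⁻¹ * x := by group

theorem mem_Uc {D : Subgroup ↥P} {y : ↥P} : y ∈ Uc D ↔ ∀ d ∈ D, d * y = y * d := Iff.rfl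

/-- the normal abelian Sylow `a`-subgroup of `H` centralising `N` -/
structure AC (a : ℕ) (P N H : Subgroup G) (A : Sylow a ↥H) : Prop where
  hA : (A : Subgroup H).Normal
  hAc : IsMulCommutative ↥(A : Subgroup H)
  hAN : ∀ x ∈ (A : Subgroup H), ∀ n ∈ N, (x : G) * n = n * x
  haP : ¬ a ∣ Nat.card P
  da : ∃ d ∈ charDegrees G, a ∣ d

variable {a : ℕ} {A : Sylow a ↥H}

theorem AC.mem_of_N (C : AC a P N H A) {n : ↥P} (hn : (n : G) ∈ N) : n ∈ Dc P (A : Subgroup H) :=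
  fun x hx => C.hAN x hx n hn

theorem AC.comm_mem (C : AC a P N H A) (B : BX t P N H) (x y : ↥P) : x * y * x⁻¹ * y⁻¹ ∈ Dc P (A : Subgroup H) :=
  C.mem_of_N (B.hPcN x x.2 y y.2)

theorem AC.normal (C : AC a P N H A) (B : BX t P N H) : (Dc P (A : Subgroup H)).Normal := by
  constructor
  intro d hd y
  have : y * d * y⁻¹ = (y * d * y⁻¹ * d⁻¹) * d := by group
  rw [this]
  exact Subgroup.mul_mem _ (C.comm_mem B y d) hd

theorem AC.conj_D (C : AC a P N H A) {h : G} (hh : h ∈ H) {d : ↥P} (hd : d ∈ Dc P (A : Subgroup H)) :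
    (⟨h * d * h⁻¹, hPn.conj_mem d d.2 h⟩ : ↥P) ∈ Dc P (A : Subgroup H) := by
  intro x hx
  have h1 := hd ((⟨h, hh⟩ : H)⁻¹ * x * (⟨h, hh⟩ : H)) (by
    have := C.hA.conj_mem x hx (⟨h, hh⟩ : H)⁻¹
    rwa [inv_inv] at this)
  have h2 : (((⟨h, hh⟩ : H)⁻¹ * x * (⟨h, hh⟩ : H) : H) : G) = h⁻¹ * x * h := rfl
  rw [h2] at h1
  change (x : G) * (h * d * h⁻¹) = h * d * h⁻¹ * x
  calc (x : G) * (h * d * h⁻¹) = h * ((h⁻¹ * x * h) * d) * h⁻¹ := by group
    _ = h * (d * (h⁻¹ * x * h)) * h⁻¹ := by rw [h1]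
    _ = h * d * h⁻¹ * x := by group

theorem AC.conj_U (C : AC a P N H A) {h : G} (hh : h ∈ H) {u : ↥P} (hu : u ∈ Uc (Dc P (A : Subgroup H))) :
    (⟨h * u * h⁻¹, hPn.conj_mem u u.2 h⟩ : ↥P) ∈ Uc (Dc P (A : Subgroup H)) := by
  intro d hd
  have h1 := C.conj_D (H.inv_mem hh) hd
  have h2 := hu _ h1
  apply Subtype.ext
  have h3 := congrArg Subtype.val h2
  change h⁻¹ * d * h⁻¹⁻¹ * u = u * (h⁻¹ * d * h⁻¹⁻¹) at h3
  change (d : G) * (h * u * h⁻¹) = h * u * h⁻¹ * d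
  rw [inv_inv] at h3
  calc (d : G) * (h * u * h⁻¹) = h * (h⁻¹ * d * h * u) * h⁻¹ := by group
    _ = h * (u * (h⁻¹ * d * h)) * h⁻¹ := by rw [h3]
    _ = h * u * h⁻¹ * d := by group

/-- the commutators of `P` with `A` centralise `D` -/
theorem AC.comm_U (C : AC a P N H A) (B : BX t P N H) {x0 : G} (hx0 : x0 ∈ P) {α0 : ↥H}
    (hα0 : α0 ∈ (A : Subgroup H)) (hy : x0 * α0 * x0⁻¹ * (α0 : G)⁻¹ ∈ P) :
    (⟨x0 * α0 * x0⁻¹ * (α0 : G)⁻¹, hy⟩ : ↥P) ∈ Uc (Dc P (A : Subgroup H)) := by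
  intro d hd
  apply Subtype.ext
  change (d : G) * (x0 * α0 * x0⁻¹ * (α0 : G)⁻¹) = (x0 * α0 * x0⁻¹ * (α0 : G)⁻¹) * d
  set y : G := x0 * α0 * x0⁻¹ * (α0 : G)⁻¹ with hy
  have e1 := hd α0 hα0
  have hn : x0⁻¹ * d * x0 * (d : G)⁻¹ ∈ N := by
    have := B.hPcN x0⁻¹ (P.inv_mem hx0) d d.2
    rwa [inv_inv] at this
  set n := x0⁻¹ * d * x0 * (d : G)⁻¹ with hndef
  have e2 : (d : G) * x0 * (d : G)⁻¹ = x0 * n := by rw [hndef]; group
  have e3 := C.hAN α0 hα0 n hn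
  have e1' : (d : G) * α0 * (d : G)⁻¹ = α0 := by rw [← e1, mul_inv_cancel_right]
  have e6 : (d : G) * y * (d : G)⁻¹ = y := by
    calc (d : G) * y * (d : G)⁻¹ = ((d : G) * x0 * (d : G)⁻¹) * ((d : G) * α0 * (d : G)⁻¹) *
          ((d : G) * x0 * (d : G)⁻¹)⁻¹ * ((d : G) * α0 * (d : G)⁻¹)⁻¹ := by rw [hy]; group
      _ = (x0 * n) * α0 * (x0 * n)⁻¹ * (α0 : G)⁻¹ := by rw [e2, e1']
      _ = x0 * (n * α0) * n⁻¹ * x0⁻¹ * (α0 : G)⁻¹ := by group
      _ = x0 * (α0 * n) * n⁻¹ * x0⁻¹ * (α0 : G)⁻¹ := by rw [e3]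
      _ = y := by rw [hy]; group
  calc (d : G) * y = ((d : G) * y * (d : G)⁻¹) * d := by group
    _ = y * d := by rw [e6]

/-- `P = U D` -/
theorem AC.factor [ha : Fact a.Prime] (C : AC a P N H A) (B : BX t P N H) (y : ↥P) :
    ∃ m ∈ Uc (Dc P (A : Subgroup H)), ∃ c ∈ Dc P (A : Subgroup H), y = m * c := by
  let K : Subgroup G := (A : Subgroup H).map H.subtype
  have hmem : ∀ x ∈ K, ∃ hx : x ∈ H, (⟨x, hx⟩ : H) ∈ (A : Subgroup H) := by
    rintro x ⟨y, hy, rfl⟩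
    exact ⟨y.2, hy⟩
  have hCP : IsPGroup a K := A.isPGroup'.map _
  have hCn : K ≤ Subgroup.normalizer (P : Set G) := by
    rw [Subgroup.normalizer_eq_top]
    exact le_top
  have hcomm : (⁅P, K⁆ : Subgroup G) ≤ (Uc (Dc P (A : Subgroup H))).map P.subtype := by
    rw [Subgroup.commutator_le]
    intro y hy x hx
    obtain ⟨h1, h2⟩ := hmem x hx
    have h4 : y * x * y⁻¹ * x⁻¹ ∈ P := by
      have : y * x * y⁻¹ * x⁻¹ = y * (x * y⁻¹ * x⁻¹) := by group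
      rw [this]
      exact P.mul_mem hy (hPn.conj_mem _ (P.inv_mem hy) x)
    exact ⟨⟨_, h4⟩, C.comm_U B hy h2 h4, rfl⟩
  obtain ⟨m, hm, c, hc, hmc⟩ := Lib.CoprimeCommutator.exists_commutator_mul_fixed_of_isPGroup a K P hCP hCn
    C.haP y y.2
  obtain ⟨m', hm', hmm⟩ := hcomm hm
  have hcP : c ∈ P := (Subgroup.mem_inf.1 hc).1
  refine ⟨m', hm', ⟨c, hcP⟩, ?_, ?_⟩
  · intro x hx
    exact Subgroup.mem_centralizer_iff.1 (Subgroup.mem_inf.1 hc).2 x ⟨x, hx, rfl⟩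
  · apply Subtype.ext
    rw [hmc, ← hmm]
    rfl

/-- elements of `U ∩ D` are central in `P` -/
theorem AC.central [ha : Fact a.Prime] (C : AC a P N H A) (B : BX t P N H) {z : ↥P}
    (hzU : z ∈ Uc (Dc P (A : Subgroup H))) (hzD : z ∈ Dc P (A : Subgroup H)) (y : ↥P) : y * z = z * y := by
  obtain ⟨m, hm, c, hc, rfl⟩ := C.factor B y
  have e1 : Commute z m := hm z hzD
  have e2 : Commute c z := hzU c hc
  exact (e1.symm.mul_left e2).eq

/-- nontrivial characters trivial on `D` are moved by `A` -/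
theorem AC.moved [ha : Fact a.Prime] (C : AC a P N H A) (B : BX t P N H) {μ : ↥P →* ℂˣ}
    (hμ : μ ∈ Vc (Dc P (A : Subgroup H))) (hμ1 : μ ≠ 1) :
    ¬ ∀ x ∈ (A : Subgroup H), (x : G) ∈ stab P H (fun n => (μ n : ℂ)) := by
  intro hfix
  apply hμ1
  let K : Subgroup G := (A : Subgroup H).map H.subtype
  have hmem : ∀ x ∈ K, ∃ hx : x ∈ H, (⟨x, hx⟩ : H) ∈ (A : Subgroup H) := by
    rintro x ⟨y, hy, rfl⟩
    exact ⟨y.2, hy⟩
  have hCP : IsPGroup a K := A.isPGroup'.map _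
  have hCn : K ≤ Subgroup.normalizer (P : Set G) := by
    rw [Subgroup.normalizer_eq_top]
    exact le_top
  -- `μ` is trivial on `[P, K]`
  have hcomm : (⁅P, K⁆ : Subgroup G) ≤ (μ.ker).map P.subtype := by
    rw [Subgroup.commutator_le]
    intro y hy x hx
    obtain ⟨h1, h2⟩ := hmem x hx
    have h3 := (mem_stab_lin.1 (hfix _ h2)).2 ⟨y⁻¹, P.inv_mem hy⟩
    have h4 : x * y⁻¹ * x⁻¹ ∈ P := hPn.conj_mem _ (P.inv_mem hy) x
    refine ⟨⟨y, hy⟩ * ⟨x * y⁻¹ * x⁻¹, h4⟩, ?_, ?_⟩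
    · rw [SetLike.mem_coe, MonoidHom.mem_ker, map_mul]
      change μ ⟨y, hy⟩ * μ ⟨x * y⁻¹ * x⁻¹, _⟩ = 1
      have h5 : μ ⟨x * y⁻¹ * x⁻¹, h4⟩ = μ ⟨y⁻¹, P.inv_mem hy⟩ := h3
      rw [h5, ← map_mul]
      have : (⟨y, hy⟩ * ⟨y⁻¹, P.inv_mem hy⟩ : P) = 1 := Subtype.ext (mul_inv_cancel y)
      rw [this, map_one]
    · rw [commutatorElement_def]
      change y * (x * y⁻¹ * x⁻¹) = _
      group
  ext y
  obtain ⟨m, hm, c, hc, hmc⟩ := Lib.CoprimeCommutator.exists_commutator_mul_fixed_of_isPGroup a K P hCP hCn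
    C.haP y y.2
  obtain ⟨m', hm', hmm⟩ := hcomm hm
  have hcP : c ∈ P := (Subgroup.mem_inf.1 hc).1
  have hcD : (⟨c, hcP⟩ : P) ∈ Dc P (A : Subgroup H) := by
    intro x hx
    have h6 := Subgroup.mem_centralizer_iff.1 (Subgroup.mem_inf.1 hc).2 x ⟨x, hx, rfl⟩
    exact h6
  have h7 : y = m' * ⟨c, hcP⟩ := by
    apply Subtype.ext
    rw [hmc, ← hmm]
    rfl
  rw [h7, map_mul, (MonoidHom.mem_ker).1 hm', hμ _ hcD, one_mul]
  rfl

/-- the commutator pairing -/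
noncomputable def pair (B : BX t P N H) (l : ↥N →* ℂˣ) : ↥P →* (↥P →* ℂˣ) where
  toFun y :=
    { toFun := fun x => l ⟨x * y * (x : G)⁻¹ * (y : G)⁻¹, B.hPcN x x.2 y y.2⟩
      map_one' := by
        have : (⟨((1 : P) : G) * y * ((1 : P) : G)⁻¹ * (y : G)⁻¹, B.hPcN _ (1 : P).2 y y.2⟩ : N) = 1 := by
          apply Subtype.ext
          change ((1 : P) : G) * y * ((1 : P) : G)⁻¹ * (y : G)⁻¹ = 1
          rw [OneMemClass.coe_one]; group
        rw [this, map_one]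
      map_mul' := by
        intro x x'
        rw [← map_mul]
        congr 1
        apply Subtype.ext
        change ((x * x' : P) : G) * y * ((x * x' : P) : G)⁻¹ * (y : G)⁻¹ =
          ((x : G) * y * (x : G)⁻¹ * (y : G)⁻¹) * ((x' : G) * y * (x' : G)⁻¹ * (y : G)⁻¹)
        rw [Subgroup.coe_mul]
        have h1 := B.hPcN x' x'.2 y y.2
        have h2 := B.hNz x x.2 _ h1
        have h3 := B.hNz _ (B.hNP (B.hPcN x x.2 y y.2)) _ h1
        rw [h3]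
        calc (x : G) * x' * y * ((x : G) * x')⁻¹ * (y : G)⁻¹
            = ((x : G) * (x' * y * (x' : G)⁻¹ * (y : G)⁻¹)) * y * (x : G)⁻¹ * (y : G)⁻¹ := by group
          _ = ((x' * y * (x' : G)⁻¹ * (y : G)⁻¹) * x) * y * (x : G)⁻¹ * (y : G)⁻¹ := by rw [h2]
          _ = _ := by group }
  map_one' := by
    ext x
    change ((l ⟨x * ((1 : P) : G) * (x : G)⁻¹ * ((1 : P) : G)⁻¹, B.hPcN x x.2 _ (1 : P).2⟩ : ℂˣ) : ℂ) = 1
    have : (⟨x * ((1 : P) : G) * (x : G)⁻¹ * ((1 : P) : G)⁻¹, B.hPcN x x.2 _ (1 : P).2⟩ : N) = 1 := by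
      apply Subtype.ext
      change (x : G) * ((1 : P) : G) * (x : G)⁻¹ * ((1 : P) : G)⁻¹ = 1
      rw [OneMemClass.coe_one]; group
    rw [this, map_one]
    rfl
  map_mul' := by
    intro y y'
    ext x
    change ((l ⟨x * ((y * y' : P) : G) * (x : G)⁻¹ * ((y * y' : P) : G)⁻¹, B.hPcN x x.2 _ (y * y' : P).2⟩ : ℂˣ) : ℂ) =
      ((l ⟨x * y * (x : G)⁻¹ * (y : G)⁻¹, B.hPcN x x.2 y y.2⟩ *
        l ⟨x * y' * (x : G)⁻¹ * (y' : G)⁻¹, B.hPcN x x.2 y' y'.2⟩ : ℂˣ) : ℂ)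
    rw [← map_mul]
    congr 2
    apply Subtype.ext
    change (x : G) * ((y * y' : P) : G) * (x : G)⁻¹ * ((y * y' : P) : G)⁻¹ =
      ((x : G) * y * (x : G)⁻¹ * (y : G)⁻¹) * ((x : G) * y' * (x : G)⁻¹ * (y' : G)⁻¹)
    rw [Subgroup.coe_mul]
    have h1 := B.hPcN x x.2 y' y'.2
    have h2 := B.hNz y y.2 _ h1
    calc (x : G) * (y * y') * (x : G)⁻¹ * ((y : G) * y')⁻¹
        = (x : G) * y * (x : G)⁻¹ * (x * y' * (x : G)⁻¹ * (y' : G)⁻¹) * (y : G)⁻¹ := by group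
      _ = (x : G) * y * (x : G)⁻¹ * (y : G)⁻¹ * (y * (x * y' * (x : G)⁻¹ * (y' : G)⁻¹)) * (y : G)⁻¹ := by group
      _ = (x : G) * y * (x : G)⁻¹ * (y : G)⁻¹ * ((x * y' * (x : G)⁻¹ * (y' : G)⁻¹) * y) * (y : G)⁻¹ := by rw [h2]
      _ = _ := by group

theorem pair_apply (B : BX t P N H) (l : ↥N →* ℂˣ) (y x : ↥P) :
    pair B l y x = l ⟨x * y * (x : G)⁻¹ * (y : G)⁻¹, B.hPcN x x.2 y y.2⟩ := rfl

theorem pair_self (B : BX t P N H) (l : ↥N →* ℂˣ) (y : ↥P) : pair B l y y = 1 := by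
  rw [pair_apply]
  have : (⟨y * y * (y : G)⁻¹ * (y : G)⁻¹, B.hPcN y y.2 y y.2⟩ : N) = 1 := by
    apply Subtype.ext
    change (y : G) * y * (y : G)⁻¹ * (y : G)⁻¹ = 1
    group
  rw [this, map_one]

/-- the radical of the pairing is contained in `D` -/
theorem AC.radical [ht : Fact t.Prime] [ha : Fact a.Prime] (C : AC a P N H A) (B : BX t P N H)
    (hp : ∀ d ∈ charDegrees G, t ∣ d → ¬ a ∣ d) {l : ↥N →* ℂˣ} (hl : l ≠ 1) {y : ↥P} (hy : pair B l y = 1) :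
    y ∈ Dc P (A : Subgroup H) := by
  intro x hx
  apply B.commute_of_mem x.2 (C.hAN x hx)
  exact B.star hp A C.hA C.hAN hl y.2 (fun z hz => DFunLike.congr_fun hy ⟨z, hz⟩) x hx

theorem AC.pair_mem (C : AC a P N H A) (B : BX t P N H) (l : ↥N →* ℂˣ) {y : ↥P}
    (hy : y ∈ Uc (Dc P (A : Subgroup H))) : pair B l y ∈ Vc (Dc P (A : Subgroup H)) := by
  intro k hk
  rw [pair_apply]
  have : (⟨k * y * (k : G)⁻¹ * (y : G)⁻¹, B.hPcN k k.2 y y.2⟩ : N) = 1 := by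
    apply Subtype.ext
    have h1 := congrArg Subtype.val (hy k hk)
    change (k : G) * y = y * k at h1
    change (k : G) * y * (k : G)⁻¹ * (y : G)⁻¹ = 1
    rw [h1]; group
  rw [this, map_one]

/-- elements of `U` outside `D` exist -/
theorem AC.exists_U (C : AC a P N H A) (B : BX t P N H) [ha : Fact a.Prime] :
    ∃ y ∈ Uc (Dc P (A : Subgroup H)), y ∉ Dc P (A : Subgroup H) := by
  by_contra hcon
  push Not at hcon
  apply B.not_central C.haP C.da A C.hA C.hAc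
  intro α hα y hy
  have h2 : y * α * y⁻¹ * (α : G)⁻¹ ∈ P := by
    have : y * α * y⁻¹ * (α : G)⁻¹ = y * (α * y⁻¹ * (α : G)⁻¹) := by group
    rw [this]
    exact P.mul_mem hy (hPn.conj_mem _ (P.inv_mem hy) _)
  have h1 := hcon _ (C.comm_U B hy hα h2)
  have h2' : ⁅y, (α : G)⁆ ∈ P := h2
  have h3 : Commute ⁅y, (α : G)⁆ (α : G) := (h1 α hα).symm
  exact (Lib.CoprimeStab.commute_of_commutator_commute (B.cop α.2) h2' h3).eq.symm

/-- `[P, y] = N` for `y` in `U` outside `D` -/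
theorem AC.comm_surj [ht : Fact t.Prime] [ha : Fact a.Prime] (C : AC a P N H A) (B : BX t P N H)
    (hp : ∀ d ∈ charDegrees G, t ∣ d → ¬ a ∣ d) {y : ↥P} (hy : y ∉ Dc P (A : Subgroup H)) :
    ∀ n ∈ N, ∃ x : ↥P, (x : G) * y * (x : G)⁻¹ * (y : G)⁻¹ = n := by
  let φ : ↥P →* ↥N :=
    { toFun := fun x => ⟨x * y * (x : G)⁻¹ * (y : G)⁻¹, B.hPcN x x.2 y y.2⟩
      map_one' := Subtype.ext (by
        change ((1 : P) : G) * y * ((1 : P) : G)⁻¹ * (y : G)⁻¹ = 1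
        rw [OneMemClass.coe_one]; group)
      map_mul' := by
        intro x x'
        apply Subtype.ext
        change ((x * x' : P) : G) * y * ((x * x' : P) : G)⁻¹ * (y : G)⁻¹ =
          ((x : G) * y * (x : G)⁻¹ * (y : G)⁻¹) * ((x' : G) * y * (x' : G)⁻¹ * (y : G)⁻¹)
        rw [Subgroup.coe_mul]
        have h1 := B.hPcN x' x'.2 y y.2
        have h2 := B.hNz x x.2 _ h1
        have h3 := B.hNz _ (B.hNP (B.hPcN x x.2 y y.2)) _ h1
        rw [h3]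
        calc (x : G) * x' * y * ((x : G) * x')⁻¹ * (y : G)⁻¹
            = ((x : G) * (x' * y * (x' : G)⁻¹ * (y : G)⁻¹)) * y * (x : G)⁻¹ * (y : G)⁻¹ := by group
          _ = ((x' * y * (x' : G)⁻¹ * (y : G)⁻¹) * x) * y * (x : G)⁻¹ * (y : G)⁻¹ := by rw [h2]
          _ = _ := by group }
  have hφ : ∀ x : ↥P, ((φ x : ↥N) : G) = x * y * (x : G)⁻¹ * (y : G)⁻¹ := fun x => rfl
  by_contra hcon
  push Not at hcon
  obtain ⟨n, hnN, hn⟩ := hcon
  have hn' : (⟨n, hnN⟩ : ↥N) ∉ φ.range := by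
    rintro ⟨x, hx⟩
    exact hn x (by rw [← hφ, hx])
  have hNc : ∀ x z : ↥N, x * z * x⁻¹ * z⁻¹ = 1 := by
    intro x z
    have : x * z = z * x := Subtype.ext (B.hN x x.2 z z.2)
    rw [this]; group
  have hrn : φ.range.Normal := by
    constructor
    intro x hx g
    have : g * x * g⁻¹ = x := by
      have h1 : g * x = x * g := Subtype.ext (B.hN g g.2 x x.2)
      rw [h1, mul_inv_cancel_right]
    rwa [this]
  obtain ⟨lam, h1, h2⟩ := exists_lin φ.range (fun x z => by rw [hNc]; exact Subgroup.one_mem _) hn'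
  have hl1 : lam ≠ 1 := by
    rintro rfl
    exact h1 rfl
  apply hy
  refine C.radical B hp hl1 ?_
  ext x
  rw [pair_apply]
  have := h2 _ ⟨x, rfl⟩
  exact congrArg Units.val this

end

end Cfsg.Agent.H988.DG.Solv
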