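import Cfsg.Agent.H988.DG.SolvD

/-!
# Two disjoint edges: the linear group at the end of the second case (helper988)
-/

set_option autoImplicit false
set_option linter.unusedSectionVars false

namespace Cfsg.Agent.H988.DG.Solv

open Cfsg Cfsg.Agent.Characters.Core Cfsg.Agent.OddOrderCharacters.IndRes
  Cfsg.Agent.OddOrderCharacters.NormalInduced Cfsg.Agent.OddOrderCharacters.PF9.CliffGen
  Cfsg.Agent.H681.DegBasic Cfsg.Agent.H748.Palfy
open Cfsg.Agent.H273.Palfy (UniqueSylow)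

universe u v

/-- interface (task 1817, part 1) -/
def IrrU : Prop :=
  ∀ (Γ : Type u) [Group Γ] [Finite Γ] (V : Type v) [CommGroup V] [Finite V] [Nontrivial V]
    [MulDistribMulAction Γ V] (t s : ℕ) [Fact t.Prime] [Fact s.Prime], (∀ v : V, v ^ t = 1) →
    ¬ t ∣ Nat.card Γ → ∀ (E : Subgroup Γ) [E.Normal], (∀ x : ℕ, x.Prime → x ∣ E.index → x = s) →
    ¬ s ∣ Nat.card E → UniqueSylow s Γ V →
    (∃ S : Sylow s Γ, ∃ h ∈ (S : Subgroup Γ), ∃ v : V, h • v ≠ v) →
    ∀ W : Subgroup V, (∀ d ∈ E, ∀ w ∈ W, d • w ∈ W) → W = ⊥ ∨ W = ⊤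

/-- interface (task 1817, part 2) -/
def EndG : Prop :=
  ∀ (Γ : Type u) [Group Γ] [Finite Γ] (V : Type v) [CommGroup V] [Finite V] [Nontrivial V]
    [MulDistribMulAction Γ V] (t s : ℕ) [Fact t.Prime] [Fact s.Prime], t ≠ s → (∀ v : V, v ^ t = 1) →
    (∀ h : Γ, (∀ v : V, h • v = v) → h = 1) →
    ¬ t ∣ Nat.card Γ → ∀ (E : Subgroup Γ) [E.Normal], (∀ x ∈ E, ∀ y ∈ E, x * y = y * x) →
    (∀ x : ℕ, x.Prime → x ∣ E.index → x = s) →
    ¬ s ∣ Nat.card E → UniqueSylow s Γ V →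
    (∃ S : Sylow s Γ, ∃ h ∈ (S : Subgroup Γ), ∃ v : V, h • v ≠ v) →
    ∀ g : V →* V →* ℂˣ, (∀ x, g x x = 1) → (∀ d ∈ E, ∀ x x' : V, g (d • x) (d • x') = g x x') → g ≠ 1 → False

/-- action on an invariant subgroup -/
@[reducible] def subAct {H : Type u} {V : Type v} [Group H] [CommGroup V] [MulDistribMulAction H V] (W : Subgroup V)
    (hW : ∀ h : H, ∀ w ∈ W, h • w ∈ W) : MulDistribMulAction H W where
  smul h w := ⟨h • (w : V), hW h w w.2⟩
  one_smul w := Subtype.ext (one_smul H (w : V))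
  mul_smul g h w := Subtype.ext (mul_smul g h (w : V))
  smul_mul g w w' := Subtype.ext (smul_mul' g (w : V) (w' : V))
  smul_one g := Subtype.ext (smul_one g)

section Core

variable (H : Type u) [Group H] (V : Type v) [CommGroup V] [MulDistribMulAction H V]

/-- the group induced by `H` on `V` -/
abbrev Gam : Type u := H ⧸ (MulDistribMulAction.toMulAut H V).ker

/-- the action of the induced group -/
@[reducible] noncomputable def gamAct : MulDistribMulAction (Gam H V) V :=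
  MulDistribMulAction.compHom V (QuotientGroup.kerLift (MulDistribMulAction.toMulAut H V))

/-- the situation of the last part -/
structure Setup [Finite H] (t s a b : ℕ) [Fact t.Prime] [Fact s.Prime] [Fact a.Prime] [Fact b.Prime]
    (A : Sylow a H) (B : Sylow b H) : Prop where
  sol : Group.IsSolvable H
  hV : ∀ v : V, v ^ t = 1
  htH : ¬ t ∣ Nat.card H
  hother : ∀ x : ℕ, x.Prime → x ≠ a → x ≠ b → x ≠ s → x ∣ Nat.card H → ∀ Q : Sylow x H,
    ∀ q ∈ (Q : Subgroup H), ∀ v : V, q • v = v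
  hA : (A : Subgroup H).Normal
  hAc : ∀ x ∈ (A : Subgroup H), ∀ y ∈ (A : Subgroup H), x * y = y * x
  hBc : ∀ x ∈ (B : Subgroup H), ∀ y ∈ (B : Subgroup H), x * y = y * x
  hAB : ∀ x ∈ (A : Subgroup H), ∀ y ∈ (B : Subgroup H), x * y = y * x
  uS : UniqueSylow s H V
  nS : ∃ S : Sylow s H, ∃ h ∈ (S : Subgroup H), ∃ v : V, h • v ≠ v
  hts : t ≠ s
  hsa : s ≠ a
  hsb : s ≠ b

variable {H V}

section

variable [Finite H] [Finite V] [Nontrivial V] {t s a b : ℕ} [ht : Fact t.Prime] [hs : Fact s.Prime]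
  [ha : Fact a.Prime] [hb : Fact b.Prime] {A : Sylow a H} {B : Sylow b H}

theorem gam_faithful : letI := gamAct H V
    ∀ h : Gam H V, (∀ v : V, h • v = v) → h = 1 := by
  intro x hx
  obtain ⟨h, rfl⟩ := QuotientGroup.mk'_surjective _ x
  rw [QuotientGroup.mk'_apply, QuotientGroup.eq_one_iff, MonoidHom.mem_ker]
  apply MulEquiv.ext
  intro v
  exact hx v

theorem Setup.primes (S : Setup H V t s a b A B) :
    ∀ x : ℕ, x.Prime → x ∣ Nat.card (Gam H V) → x = a ∨ x = b ∨ x = s := by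
  intro x hx hd
  by_contra hcon
  push Not at hcon
  have : Fact x.Prime := ⟨hx⟩
  have h0 : Nat.card (Gam H V) = (MulDistribMulAction.toMulAut H V).ker.index := (Subgroup.index_eq_card _).symm
  have h1 : x ∣ Nat.card H := by
    rw [h0] at hd
    exact hd.trans (Subgroup.index_dvd_card _)
  let Q : Sylow x H := default
  have h2 : (Q : Subgroup H) ≤ (MulDistribMulAction.toMulAut H V).ker := by
    intro q hq
    rw [MonoidHom.mem_ker]
    apply MulEquiv.ext
    intro v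
    exact S.hother x hx hcon.1 hcon.2.1 hcon.2.2 h1 Q q hq v
  rw [h0] at hd
  exact Q.not_dvd_index (hd.trans (Subgroup.index_dvd_of_le h2))

/-- the image of a Sylow subgroup -/
noncomputable def img {p : ℕ} [Fact p.Prime] (Q : Sylow p H) : Sylow p (Gam H V) :=
  Q.mapSurjective (QuotientGroup.mk'_surjective (MulDistribMulAction.toMulAut H V).ker)

theorem mem_img {p : ℕ} [Fact p.Prime] {Q : Sylow p H} {x : Gam H V} :
    x ∈ (img Q : Sylow p (Gam H V)) ↔ ∃ q ∈ (Q : Subgroup H), QuotientGroup.mk' (MulDistribMulAction.toMulAut H V).ker q = x :=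
  Iff.rfl

theorem Setup.img_normal (S : Setup H V t s a b A B) : ((img A : Sylow a (Gam H V)) : Subgroup (Gam H V)).Normal :=
  Subgroup.Normal.map S.hA _ (QuotientGroup.mk'_surjective _)

theorem Setup.uS' (S : Setup H V t s a b A B) : letI := gamAct H V
    UniqueSylow s (Gam H V) V := by
  let _ := gamAct H V
  exact Cfsg.Agent.H273.PalfyKP.uniqueSylow_map _ (QuotientGroup.mk'_surjective (MulDistribMulAction.toMulAut H V).ker)
    (fun h v => rfl) S.uS

theorem Setup.nS' (S : Setup H V t s a b A B) : letI := gamAct H V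
    ∃ Q : Sylow s (Gam H V), ∃ h ∈ (Q : Subgroup (Gam H V)), ∃ v : V, h • v ≠ v := by
  obtain ⟨Q, h, hh, v, hv⟩ := S.nS
  exact ⟨img Q, QuotientGroup.mk' _ h, ⟨h, hh, rfl⟩, v, hv⟩

theorem Setup.imgB_normal (S : Setup H V t s a b A B) :
    ((img B : Sylow b (Gam H V)) : Subgroup (Gam H V)).Normal := by
  let _ := gamAct H V
  have hsol := S.sol
  refine sylow_b_normal (V := V) (a := a) (b := b) (s := s) inferInstance gam_faithful S.primes (img A) (img B) ?_ ?_
    S.uS'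
  · rintro _ ⟨x, hx, rfl⟩ _ ⟨y, hy, rfl⟩
    rw [← map_mul, ← map_mul]
    exact congrArg _ (S.hBc x hx y hy)
  · rintro _ ⟨x, hx, rfl⟩ _ ⟨y, hy, rfl⟩
    rw [← map_mul, ← map_mul]
    exact congrArg _ (S.hAB x hx y hy)

/-- all Sylow `b`-subgroups induce the same group on `V`. -/
theorem Setup.same (S : Setup H V t s a b A B) (B' : Sylow b H) :
    ∀ β ∈ (B : Subgroup H), ∃ β' ∈ (B' : Subgroup H), ∀ v : V, (β'⁻¹ * β) • v = v := by
  intro β hβ
  have := Sylow.unique_of_normal _ S.imgB_normal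
  have h1 : (img B' : Sylow b (Gam H V)) = img B := Subsingleton.elim _ _
  have h2 : QuotientGroup.mk' (MulDistribMulAction.toMulAut H V).ker β ∈ (img B' : Sylow b (Gam H V)) := by
    rw [h1]
    exact ⟨β, hβ, rfl⟩
  obtain ⟨β', hβ', h3⟩ := h2
  refine ⟨β', hβ', fun v => ?_⟩
  have h4 : β'⁻¹ * β ∈ (MulDistribMulAction.toMulAut H V).ker := QuotientGroup.eq.1 h3
  rw [MonoidHom.mem_ker] at h4
  exact DFunLike.congr_fun h4 v

theorem mem_E (Z : Subgroup H) (hAZ : (A : Subgroup H) ≤ Z) (hBZ : (B : Subgroup H) ≤ Z)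
    (S : Setup H V t s a b A B) {d : Gam H V}
    (hd : d ∈ ((img A : Sylow a (Gam H V)) : Subgroup (Gam H V)) ⊔ ((img B : Sylow b (Gam H V)) : Subgroup (Gam H V))) :
    ∃ h ∈ Z, QuotientGroup.mk' (MulDistribMulAction.toMulAut H V).ker h = d := by
  have := S.img_normal
  obtain ⟨_, ⟨x, hx, rfl⟩, _, ⟨y, hy, rfl⟩, rfl⟩ := Subgroup.mem_sup_of_normal_left.1 hd
  exact ⟨x * y, Z.mul_mem (hAZ hx) (hBZ hy), map_mul _ _ _⟩

theorem Setup.E_comm (S : Setup H V t s a b A B) :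
    ∀ x ∈ ((img A : Sylow a (Gam H V)) : Subgroup (Gam H V)) ⊔ ((img B : Sylow b (Gam H V)) : Subgroup (Gam H V)),
    ∀ y ∈ ((img A : Sylow a (Gam H V)) : Subgroup (Gam H V)) ⊔ ((img B : Sylow b (Gam H V)) : Subgroup (Gam H V)),
      x * y = y * x := by
  refine sup_abelian S.img_normal ?_ ?_ ?_
  · rintro _ ⟨x, hx, rfl⟩ _ ⟨y, hy, rfl⟩
    rw [← map_mul, ← map_mul]
    exact congrArg _ (S.hAc x hx y hy)
  · rintro _ ⟨x, hx, rfl⟩ _ ⟨y, hy, rfl⟩
    rw [← map_mul, ← map_mul]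
    exact congrArg _ (S.hBc x hx y hy)
  · rintro _ ⟨x, hx, rfl⟩ _ ⟨y, hy, rfl⟩
    rw [← map_mul, ← map_mul]
    exact congrArg _ (S.hAB x hx y hy)

theorem Setup.tGam (S : Setup H V t s a b A B) : ¬ t ∣ Nat.card (Gam H V) := by
  intro h
  apply S.htH
  have h0 : Nat.card (Gam H V) = (MulDistribMulAction.toMulAut H V).ker.index := (Subgroup.index_eq_card _).symm
  rw [h0] at h
  exact h.trans (Subgroup.index_dvd_card _)

/-- irreducibility -/
theorem Setup.irr (hI : IrrU.{u, v}) (S : Setup H V t s a b A B) (Z : Subgroup H) (hAZ : (A : Subgroup H) ≤ Z)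
    (hBZ : (B : Subgroup H) ≤ Z) (W : Subgroup V) (hW : ∀ h ∈ Z, ∀ w ∈ W, h • w ∈ W) : W = ⊥ ∨ W = ⊤ := by
  let _ := gamAct H V
  have h1 := S.img_normal
  have h2 := S.imgB_normal
  refine hI (Gam H V) V t s S.hV S.tGam
    (((img A : Sylow a (Gam H V)) : Subgroup (Gam H V)) ⊔ ((img B : Sylow b (Gam H V)) : Subgroup (Gam H V)))
    (sup_index S.primes (img A) (img B)) (sup_card hs.out S.hsa S.hsb (img A) (img B) h1) S.uS' S.nS' W ?_
  intro d hd w hw
  obtain ⟨h, hh, rfl⟩ := mem_E Z hAZ hBZ S hd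
  exact hW h hh w hw

/-- no invariant form -/
theorem Setup.endgame (hE : EndG.{u, v}) (S : Setup H V t s a b A B) (Z : Subgroup H) (hAZ : (A : Subgroup H) ≤ Z)
    (hBZ : (B : Subgroup H) ≤ Z) (g : V →* V →* ℂˣ) (halt : ∀ x, g x x = 1)
    (hinv : ∀ h ∈ Z, ∀ x x' : V, g (h • x) (h • x') = g x x') (hg : g ≠ 1) : False := by
  let _ := gamAct H V
  have h1 := S.img_normal
  have h2 := S.imgB_normal
  refine hE (Gam H V) V t s S.hts S.hV gam_faithful S.tGam
    (((img A : Sylow a (Gam H V)) : Subgroup (Gam H V)) ⊔ ((img B : Sylow b (Gam H V)) : Subgroup (Gam H V)))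
    S.E_comm
    (sup_index S.primes (img A) (img B)) (sup_card hs.out S.hsa S.hsb (img A) (img B) h1) S.uS' S.nS' g halt ?_ hg
  intro d hd x x'
  obtain ⟨h, hh, rfl⟩ := mem_E Z hAZ hBZ S hd
  exact hinv h hh x x'

end

end Core

end Cfsg.Agent.H988.DG.Solv
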