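import Cfsg.Agent.H988.DG.SolvE

/-!
# Two disjoint edges: end of the second case (helper988)
-/

set_option autoImplicit false
set_option linter.unusedSectionVars false

namespace Cfsg.Agent.H988.DG.Solv

open Cfsg Cfsg.Agent.Characters.Core Cfsg.Agent.OddOrderCharacters.IndRes
  Cfsg.Agent.OddOrderCharacters.NormalInduced Cfsg.Agent.OddOrderCharacters.PF9.CliffGen
  Cfsg.Agent.H681.DegBasic Cfsg.Agent.H748.Palfy
open Cfsg.Agent.H273.Palfy (UniqueSylow)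
open scoped commutatorElement

universe u v

section

variable {G : Type u} [Group G] [Finite G]

variable {t : ℕ} {P N H : Subgroup G} [hPn : P.Normal] [hNn : N.Normal]

variable {a : ℕ} {A : Sylow a ↥H}

theorem AC.Vc_inv (C : AC a P N H A) : letI := linAct P H
    ∀ h : H, ∀ μ ∈ Vc (Dc P (A : Subgroup H)), h • μ ∈ Vc (Dc P (A : Subgroup H)) := by
  intro h μ hμ k hk
  have h0 : (letI := linAct P H; h • μ) k = _ := linAct_apply P H h μ k
  rw [h0]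
  have h1 := hμ _ (C.conj_D (H.inv_mem h.2) hk)
  rw [← h1]
  congr 1
  apply Subtype.ext
  change (h : G)⁻¹ * k * h = (h : G)⁻¹ * k * (h : G)⁻¹⁻¹
  rw [inv_inv]

/-- the action of `H` on the characters trivial on `D` -/
@[reducible] noncomputable def AC.act (C : AC a P N H A) :
    MulDistribMulAction ↥H ↥(Vc (Dc P (A : Subgroup H))) :=
  letI := linAct P H
  subAct _ C.Vc_inv

theorem AC.act_coe (C : AC a P N H A) (h : H) (μ : ↥(Vc (Dc P (A : Subgroup H)))) (y : ↥P) :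
    ((letI := C.act; h • μ : ↥(Vc (Dc P (A : Subgroup H)))) : ↥P →* ℂˣ) y =
      (μ : ↥P →* ℂˣ) ⟨(h : G)⁻¹ * y * (h : G), by simpa using hPn.conj_mem y y.2 (h : G)⁻¹⟩ :=
  linAct_apply P H h (μ : ↥P →* ℂˣ) y

theorem AC.act_iff (C : AC a P N H A) (h : H) (μ : ↥(Vc (Dc P (A : Subgroup H)))) :
    letI := C.act
    h • μ = μ ↔ (h : G) ∈ stab P H (fun n => ((μ : ↥P →* ℂˣ) n : ℂ)) := by
  rw [← smul_eq_iff P H h (μ : ↥P →* ℂˣ), Subtype.ext_iff]
  exact Iff.rfl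

theorem AC.pow_mem [ht : Fact t.Prime] [ha : Fact a.Prime] (C : AC a P N H A) (B : BX t P N H)
    (hp : ∀ d ∈ charDegrees G, t ∣ d → ¬ a ∣ d) (y : ↥P) : y ^ t ∈ Dc P (A : Subgroup H) := by
  obtain ⟨l, hl⟩ := exists_lin_ne_one B.hN B.hN1
  refine C.radical B hp hl ?_
  rw [map_pow]
  ext x
  rw [MonoidHom.pow_apply, pair_apply, ← map_pow]
  have : (⟨x * y * (x : G)⁻¹ * (y : G)⁻¹, B.hPcN x x.2 y y.2⟩ : N) ^ t = 1 := Subtype.ext (B.hNt _ (B.hPcN x x.2 y y.2))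
  rw [this, map_one]
  rfl

theorem AC.exponent [ht : Fact t.Prime] [ha : Fact a.Prime] (C : AC a P N H A) (B : BX t P N H)
    (hp : ∀ d ∈ charDegrees G, t ∣ d → ¬ a ∣ d) (μ : ↥(Vc (Dc P (A : Subgroup H)))) : μ ^ t = 1 := by
  apply Subtype.ext
  ext y
  have h1 := μ.2 _ (C.pow_mem B hp y)
  change ((((μ : ↥P →* ℂˣ) ^ t) y : ℂˣ) : ℂ) = 1
  rw [MonoidHom.pow_apply, ← map_pow, h1, Units.val_one]

theorem AC.exists_ne [ht : Fact t.Prime] [ha : Fact a.Prime] (C : AC a P N H A) (B : BX t P N H)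
    (hp : ∀ d ∈ charDegrees G, t ∣ d → ¬ a ∣ d) : ∃ μ : ↥(Vc (Dc P (A : Subgroup H))), μ ≠ 1 := by
  obtain ⟨l, hl⟩ := exists_lin_ne_one B.hN B.hN1
  obtain ⟨y, hyU, hyD⟩ := C.exists_U B
  refine ⟨⟨pair B l y, C.pair_mem B l hyU⟩, fun h => hyD (C.radical B hp hl ?_)⟩
  exact congrArg Subtype.val h

variable {s b : ℕ}

theorem AC.unique [ht : Fact t.Prime] [ha : Fact a.Prime] [hs : Fact s.Prime] (c : YC G t s a b) (C : AC a P N H A)
    (B : BX t P N H) : letI := C.act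
    UniqueSylow s ↥H ↥(Vc (Dc P (A : Subgroup H))) := by
  let _ := C.act
  intro μ hμ
  have h1 := dvd_relIndex A C.hA (C.moved B μ.2 (fun h => hμ (Subtype.ext h)))
  obtain ⟨S, h2, h3, h4⟩ := uniq_of_degrees B.solv (stab_le P H (fun n => ((μ : ↥P →* ℂˣ) n : ℂ))) (p := s) (by
    intro d hd hsd
    have h5 := degree_linear B.hPH B.hPH' (μ : ↥P →* ℂˣ) hd
    rcases c.rot.of_t ha.out h5 (dvd_mul_of_dvd_left h1 _) s hs.out hsd with h6 | h6
    · exact c.sa h6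
    · exact c.sb h6)
  exact ⟨S, h2, fun x hx => (C.act_iff x μ).2 (h3 x hx), fun T hT => h4 T fun x hx => (C.act_iff x μ).1 (hT x hx)⟩

theorem AC.nontriv [ht : Fact t.Prime] [ha : Fact a.Prime] [hs : Fact s.Prime] (c : YC G t s a b) (C : AC a P N H A)
    (B : BX t P N H) (hsP : ¬ s ∣ Nat.card P) : letI := C.act
    ∃ S : Sylow s H, ∃ h ∈ (S : Subgroup H), ∃ v : ↥(Vc (Dc P (A : Subgroup H))), h • v ≠ v := by
  let _ := C.act
  by_contra hcon
  push Not at hcon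
  obtain ⟨μ, hμ⟩ := C.exists_ne B (c.not_a ht.out ha.out)
  obtain ⟨S, h1, h2, h3⟩ := C.unique c B μ hμ
  have hall : ∀ T : Sylow s H, T = S := fun T => h3 T fun x hx => hcon T x hx μ
  have hSn : (S : Subgroup H).Normal := by
    rw [← Subgroup.normalizer_eq_top_iff, Sylow.coe_coe, ← Sylow.stabilizer_eq_normalizer, eq_top_iff]
    intro g _
    rw [MulAction.mem_stabilizer_iff, hall (g • S)]
  obtain ⟨μ2, hμ2⟩ := B.exists_moved' hsP c.ds S hSn h1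
  obtain ⟨d, hd, had, hsd⟩ := B.degree_of_moved A C.hA S hSn (C.moved B μ.2 (fun h => hμ (Subtype.ext h))) hμ2
  rcases c.rot.of_t ha.out hd had s hs.out hsd with h6 | h6
  · exact c.sa h6
  · exact c.sb h6

theorem conj_calc {X : Type u} [Group X] {k x y z d n : X} (hx : x * y * x⁻¹ * y⁻¹ = n) (e1 : k * x * k⁻¹ = d * x)
    (e2 : k * y * k⁻¹ = z * y) (c1 : Commute d y) (c2 : Commute z x) (c3 : Commute z d) (c4 : Commute z n)
    (c5 : Commute d n) : k * n * k⁻¹ = n := by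
  calc k * n * k⁻¹ = (k * x * k⁻¹) * (k * y * k⁻¹) * (k * x * k⁻¹)⁻¹ * (k * y * k⁻¹)⁻¹ := by rw [← hx]; group
    _ = (d * x) * (z * y) * (d * x)⁻¹ * (z * y)⁻¹ := by rw [e1, e2]
    _ = d * ((x * z) * y * x⁻¹) * d⁻¹ * (z * y)⁻¹ := by group
    _ = d * ((z * x) * y * x⁻¹) * d⁻¹ * (z * y)⁻¹ := by rw [c2.eq]
    _ = d * z * ((x * y * x⁻¹ * y⁻¹) * y) * d⁻¹ * (z * y)⁻¹ := by group
    _ = d * z * (n * y) * d⁻¹ * (z * y)⁻¹ := by rw [hx]
    _ = (d * z) * (n * (y * d⁻¹)) * (z * y)⁻¹ := by group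
    _ = (z * d) * (n * (d⁻¹ * y)) * (z * y)⁻¹ := by rw [c3.eq, c1.inv_left.eq]
    _ = z * ((d * n) * d⁻¹) * z⁻¹ := by group
    _ = z * n * z⁻¹ := by rw [c5.eq, mul_inv_cancel_right]
    _ = n := by rw [c4.eq, mul_inv_cancel_right]

/-- an element of `H` acting trivially on the characters trivial on `D` centralises `N`. -/
theorem AC.kernel_central [ht : Fact t.Prime] [ha : Fact a.Prime] (C : AC a P N H A) (B : BX t P N H)
    (hp : ∀ d ∈ charDegrees G, t ∣ d → ¬ a ∣ d) {k : ↥H}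
    (hk : ∀ μ ∈ Vc (Dc P (A : Subgroup H)), (k : G) ∈ stab P H (fun n => (μ n : ℂ))) :
    ∀ n ∈ N, (k : G) * n = n * k := by
  obtain ⟨y, hyU, hyD⟩ := C.exists_U B
  have hDn := C.normal B
  have hmod : ∀ x : ↥P, (⟨(k : G) * x * (k : G)⁻¹, hPn.conj_mem x x.2 k⟩ * x⁻¹ : ↥P) ∈ Dc P (A : Subgroup H) := by
    intro x
    by_contra hcon
    obtain ⟨μ, hμ1, hμ2⟩ := exists_lin (Dc P (A : Subgroup H)) (C.comm_mem B) hcon
    apply hμ1
    rw [map_mul, map_inv, (mem_stab_lin.1 (hk μ hμ2)).2 x, mul_inv_cancel]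
  intro n hn
  obtain ⟨x, hx⟩ := C.comm_surj B hp hyD n hn
  -- images of `x` and `y`
  set d1 : ↥P := ⟨(k : G) * x * (k : G)⁻¹, hPn.conj_mem x x.2 k⟩ * x⁻¹ with hd1
  set z : ↥P := ⟨(k : G) * y * (k : G)⁻¹, hPn.conj_mem y y.2 k⟩ * y⁻¹ with hz
  have hzD : z ∈ Dc P (A : Subgroup H) := hmod y
  have hzU : z ∈ Uc (Dc P (A : Subgroup H)) := Subgroup.mul_mem _ (C.conj_U k.2 hyU) (Subgroup.inv_mem _ hyU)
  have hzc := C.central B hzU hzD
  have hd1D : d1 ∈ Dc P (A : Subgroup H) := hmod x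
  have e1 : (k : G) * x * (k : G)⁻¹ = d1 * x := by
    rw [hd1]
    change (k : G) * x * (k : G)⁻¹ = ((k : G) * x * (k : G)⁻¹ * (x : G)⁻¹) * x
    group
  have e2 : (k : G) * y * (k : G)⁻¹ = z * y := by
    rw [hz]
    change (k : G) * y * (k : G)⁻¹ = ((k : G) * y * (k : G)⁻¹ * (y : G)⁻¹) * y
    group
  have c1 : Commute (d1 : G) y := by
    have := congrArg Subtype.val (hyU d1 hd1D)
    exact this
  have cz : ∀ w : ↥P, Commute (z : G) w := by
    intro w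
    have := congrArg Subtype.val (hzc w)
    exact this.symm
  have hnc : Commute (d1 : G) n := B.hNz d1 d1.2 n hn
  have e3 : (k : G) * n * (k : G)⁻¹ = n :=
    conj_calc hx e1 e2 c1 (cz x) (cz d1) (cz ⟨n, B.hNP hn⟩) hnc
  calc (k : G) * n = ((k : G) * n * (k : G)⁻¹) * k := by group
    _ = n * k := by rw [e3]

end

end Cfsg.Agent.H988.DG.Solv
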