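import Cfsg.Agent.H988.DG.SolvF
import Cfsg.Agent.Solvable.Carter

/-!
# Two disjoint edges do not occur for solvable groups (helper988)
-/

set_option autoImplicit false
set_option linter.unusedSectionVars false

namespace Cfsg.Agent.H988.DG.Solv

open Cfsg Cfsg.Agent.Characters.Core Cfsg.Agent.OddOrderCharacters.IndRes
  Cfsg.Agent.OddOrderCharacters.NormalInduced Cfsg.Agent.OddOrderCharacters.PF9.CliffGen
  Cfsg.Agent.H681.DegBasic Cfsg.Agent.H748.Palfy
open Cfsg.Agent.H273.Palfy (UniqueSylow)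
open scoped commutatorElement

universe u v

section

variable {G : Type u} [Group G] [Finite G]

variable {t : ℕ} {P N H : Subgroup G} [hPn : P.Normal] [hNn : N.Normal]

theorem BX.t_not_dvd [ht : Fact t.Prime] (B : BX t P N H) : ¬ t ∣ Nat.card H := by
  intro h
  have h1 : t ∣ Nat.card P := by
    obtain ⟨k, hk⟩ := IsPGroup.iff_card.1 B.hP
    rw [hk]
    have : k ≠ 0 := by
      rintro rfl
      rw [pow_zero] at hk
      have h2 : P = ⊥ := Subgroup.card_eq_one.1 hk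
      exact B.hN1 (le_bot_iff.1 (h2 ▸ B.hNP))
    exact dvd_pow_self t this
  have h2 := Nat.dvd_gcd h1 h
  rw [B.hcop] at h2
  exact ht.out.one_lt.ne' (Nat.dvd_one.1 h2)

theorem BX.not_dvd_P [ht : Fact t.Prime] (B : BX t P N H) {x : ℕ} (hx : x.Prime) (hxt : x ≠ t) : ¬ x ∣ Nat.card P := by
  intro h
  obtain ⟨k, hk⟩ := IsPGroup.iff_card.1 B.hP
  rw [hk] at h
  exact hxt ((Nat.prime_dvd_prime_iff_eq hx ht.out).1 (hx.dvd_of_dvd_pow h))

variable {a : ℕ} {A : Sylow a ↥H}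

/-- the centraliser of `N` in `H` -/
def Zc (N H : Subgroup G) : Subgroup ↥H where
  carrier := {h | ∀ n ∈ N, (h : G) * n = n * h}
  one_mem' := by
    intro n _
    rw [OneMemClass.coe_one, mul_one, one_mul]
  mul_mem' := by
    intro x y hx hy n hn
    rw [Subgroup.coe_mul, mul_assoc, hy n hn, ← mul_assoc, hx n hn, mul_assoc]
  inv_mem' := by
    intro x hx n hn
    have h1 := hx n hn
    rw [Subgroup.coe_inv]
    calc (x : G)⁻¹ * n = (x : G)⁻¹ * (n * x) * (x : G)⁻¹ := by group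
      _ = (x : G)⁻¹ * (x * n) * (x : G)⁻¹ := by rw [h1]
      _ = n * (x : G)⁻¹ := by group

/-- the pairing as a map to the characters trivial on `D` -/
noncomputable def AC.Psi (C : AC a P N H A) (B : BX t P N H) (l : ↥N →* ℂˣ) :
    ↥(Uc (Dc P (A : Subgroup H))) →* ↥(Vc (Dc P (A : Subgroup H))) :=
  ((pair B l).comp (Uc (Dc P (A : Subgroup H))).subtype).codRestrict _ (fun y => C.pair_mem B l y.2)

theorem AC.Psi_apply (C : AC a P N H A) (B : BX t P N H) (l : ↥N →* ℂˣ) (y : ↥(Uc (Dc P (A : Subgroup H)))) (x : ↥P) :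
    (C.Psi B l y : ↥P →* ℂˣ) x = pair B l y x := rfl

theorem AC.Psi_conj (C : AC a P N H A) (B : BX t P N H) (l : ↥N →* ℂˣ) {h : ↥H} (hh : h ∈ Zc N H)
    (y : ↥(Uc (Dc P (A : Subgroup H)))) : letI := C.act
    h • C.Psi B l y = C.Psi B l ⟨_, C.conj_U h.2 y.2⟩ := by
  let _ := C.act
  apply Subtype.ext
  ext x
  have e1 := C.act_coe h (C.Psi B l y) x
  rw [e1, C.Psi_apply, C.Psi_apply, pair_apply, pair_apply]
  congr 2
  apply Subtype.ext
  change (h : G)⁻¹ * x * h * ((y : ↥P) : G) * ((h : G)⁻¹ * x * h)⁻¹ * ((y : ↥P) : G)⁻¹ =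
    x * (h * ((y : ↥P) : G) * (h : G)⁻¹) * (x : G)⁻¹ * (h * ((y : ↥P) : G) * (h : G)⁻¹)⁻¹
  have hm : (h : G)⁻¹ * x * h * ((y : ↥P) : G) * ((h : G)⁻¹ * x * h)⁻¹ * ((y : ↥P) : G)⁻¹ ∈ N := by
    have h1 : (h : G)⁻¹ * x * h ∈ P := by
      have := hPn.conj_mem x x.2 (h : G)⁻¹
      rwa [inv_inv] at this
    exact B.hPcN _ h1 _ (y : ↥P).2
  have h2 := hh _ hm
  have h3 : ((x : G) * ((h : G) * ((y : ↥P) : G) * (h : G)⁻¹) * (x : G)⁻¹ * ((h : G) * ((y : ↥P) : G) * (h : G)⁻¹)⁻¹) =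
      (h : G) * ((h : G)⁻¹ * x * h * ((y : ↥P) : G) * ((h : G)⁻¹ * x * h)⁻¹ * ((y : ↥P) : G)⁻¹) * (h : G)⁻¹ := by
    group
  rw [h3, h2, mul_inv_cancel_right]

variable {s b : ℕ}

theorem caseII (hI : IrrU.{u, u}) (hE : EndG.{u, u}) [ht : Fact t.Prime] [hs : Fact s.Prime] [ha : Fact a.Prime]
    [hb : Fact b.Prime] (c : YC G t s a b) (B : BX t P N H) (A : Sylow a ↥H)
    (C : AC a P N H A) (uB : letI := linAct N H
      UniqueSylow b ↥H (↥N →* ℂˣ)) : False := by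
  have hp := c.not_a ht.out ha.out
  have hsolv := B.solv
  have hsP : ¬ s ∣ Nat.card P := B.not_dvd_P hs.out c.ts.symm
  have htH := B.t_not_dvd
  obtain ⟨l0, hl0⟩ := exists_lin_ne_one B.hN B.hN1
  have hfinP : Finite (↥P →* ℂˣ) := finite_lin
  have hfinN : Finite (↥N →* ℂˣ) := finite_lin
  have hntN : Nontrivial (↥N →* ℂˣ) := ⟨l0, 1, hl0⟩
  -- the Sylow `b`-subgroup fixing `l0`
  obtain ⟨B0, hB0c, hB0, hB0u⟩ := uB l0 hl0
  have hAB : ∀ x ∈ (A : Subgroup H), ∀ y ∈ (B0 : Subgroup H), x * y = y * x := by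
    have := Sylow.unique_of_normal _ C.hA
    let _ := linAct N H
    refine Cfsg.Agent.H273.PalfyKP.commute_of_unique (V := ↥N →* ℂˣ) c.ab (v := l0) ?_ (fun C' _ => Subsingleton.elim _ _)
      hB0 hB0u
    intro x hx
    rw [smul_eq_iff N H x l0, mem_stab]
    refine ⟨x.2, fun n => ?_⟩
    congr 2
    apply Subtype.ext
    change (x : G) * n * (x : G)⁻¹ = n
    rw [C.hAN x hx n n.2, mul_inv_cancel_right]
  have hnt : Nontrivial ↥(Vc (Dc P (A : Subgroup H))) := by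
    obtain ⟨μ, hμ⟩ := C.exists_ne B hp
    exact ⟨μ, 1, hμ⟩
  let _ := C.act
  have S : Setup ↥H ↥(Vc (Dc P (A : Subgroup H))) t s a b A B0 :=
    { sol := inferInstance
      hV := C.exponent B hp
      htH := htH
      hother := by
        intro x hx hxa hxb hxs hxH Q q hq v
        have : Fact x.Prime := ⟨hx⟩
        have hxt : x ≠ t := by
          rintro rfl
          exact htH hxH
        have h1 := B.other_primes (B.not_dvd_P hx hxt) (by
          intro d hd hxd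
          rcases c.deg d hd with h | h
          · rcases h x hx hxd with h2 | h2
            · exact hxt h2
            · exact hxs h2
          · rcases h x hx hxd with h2 | h2
            · exact hxa h2
            · exact hxb h2) Q q hq
        rw [C.act_iff, mem_stab_lin]
        refine ⟨q.2, fun y => ?_⟩
        congr 1
        apply Subtype.ext
        change (q : G) * y * (q : G)⁻¹ = y
        rw [h1 y y.2, mul_inv_cancel_right]
      hA := C.hA
      hAc := fun x hx y hy => congrArg Subtype.val (C.hAc.is_comm.comm (⟨x, hx⟩ : (A : Subgroup H)) ⟨y, hy⟩)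
      hBc := fun x hx y hy => congrArg Subtype.val (hB0c.is_comm.comm (⟨x, hx⟩ : (B0 : Subgroup H)) ⟨y, hy⟩)
      hAB := hAB
      uS := C.unique c B
      nS := C.nontriv c B hsP
      hts := c.ts
      hsa := c.sa
      hsb := c.sb }
  -- `B0` centralises `N`
  have hBN : ∀ β ∈ (B0 : Subgroup H), ∀ n ∈ N, (β : G) * n = n * β := by
    intro β hβ
    refine comm_of_lin (H := H) B.hN (β : G) (fun l n => ?_)
    by_cases hl : l = 1
    · rw [hl]; rfl
    obtain ⟨B', -, hB', -⟩ := uB l hl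
    obtain ⟨β', hβ', h1⟩ := S.same B' β hβ
    have h2 := C.kernel_central B hp (k := β'⁻¹ * β) (fun μ hμ => (C.act_iff _ ⟨μ, hμ⟩).1 (h1 ⟨μ, hμ⟩))
    have h3 := (mem_stab.1 ((smul_eq_iff N H β' l).1 (hB' β' hβ'))).2 n
    have h4 := h2 n n.2
    have h5 : (β : G) * n * (β : G)⁻¹ = β' * n * (β' : G)⁻¹ := by
      have h6 : ((β'⁻¹ * β : H) : G) = (β' : G)⁻¹ * β := rfl
      rw [h6] at h4
      calc (β : G) * n * (β : G)⁻¹ = β' * (((β' : G)⁻¹ * β) * n) * (β : G)⁻¹ := by group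
        _ = β' * (n * ((β' : G)⁻¹ * β)) * (β : G)⁻¹ := by rw [h4]
        _ = β' * n * (β' : G)⁻¹ := by group
    have h7 : (⟨(β : G) * n * (β : G)⁻¹, hNn.conj_mem n n.2 β⟩ : N) = ⟨β' * n * (β' : G)⁻¹, hNn.conj_mem n n.2 β'⟩ :=
      Subtype.ext h5
    rw [h7]
    exact Units.ext h3
  have hAZ : (A : Subgroup H) ≤ Zc N H := fun x hx => C.hAN x hx
  have hBZ : (B0 : Subgroup H) ≤ Zc N H := fun x hx => hBN x hx
  -- surjectivity of the pairing
  obtain ⟨y0, hy0U, hy0D⟩ := C.exists_U B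
  have hrange : (C.Psi B l0).range = ⊤ := by
    refine (S.irr hI (Zc N H) hAZ hBZ (C.Psi B l0).range ?_).resolve_left ?_
    · rintro h hh _ ⟨y, rfl⟩
      have h1 := C.Psi_conj B l0 hh y
      rw [h1]
      exact ⟨_, rfl⟩
    · intro hbot
      apply hy0D
      refine C.radical B hp hl0 ?_
      have h1 : C.Psi B l0 ⟨y0, hy0U⟩ ∈ (C.Psi B l0).range := ⟨_, rfl⟩
      rw [hbot, Subgroup.mem_bot] at h1
      exact congrArg Subtype.val h1
  have hsurj : Function.Surjective (C.Psi B l0) := MonoidHom.range_eq_top.1 hrange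
  let r : ↥(Vc (Dc P (A : Subgroup H))) → ↥(Uc (Dc P (A : Subgroup H))) := Function.surjInv hsurj
  have hr : ∀ ν, C.Psi B l0 (r ν) = ν := Function.surjInv_eq hsurj
  have key : ∀ y y' : ↥(Uc (Dc P (A : Subgroup H))), C.Psi B l0 y = C.Psi B l0 y' →
      ∀ μ : ↥(Vc (Dc P (A : Subgroup H))), (μ : ↥P →* ℂˣ) y = (μ : ↥P →* ℂˣ) y' := by
    intro y y' h μ
    have h1 : C.Psi B l0 (y * y'⁻¹) = 1 := by rw [map_mul, map_inv, h, mul_inv_cancel]
    have h2 : (y : ↥P) * (y' : ↥P)⁻¹ ∈ Dc P (A : Subgroup H) :=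
      C.radical B hp hl0 (congrArg Subtype.val h1)
    have h3 := μ.2 _ h2
    rw [map_mul, map_inv] at h3
    exact mul_inv_eq_one.1 h3
  let g : ↥(Vc (Dc P (A : Subgroup H))) →* ↥(Vc (Dc P (A : Subgroup H))) →* ℂˣ :=
    { toFun := fun μ =>
        { toFun := fun ν => (μ : ↥P →* ℂˣ) (r ν)
          map_one' := by
            rw [key (r 1) 1 (by rw [hr, map_one]) μ]
            exact map_one _
          map_mul' := by
            intro ν ν'
            rw [key (r (ν * ν')) (r ν * r ν') (by rw [hr, map_mul, hr, hr]) μ]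
            exact map_mul _ _ _ }
      map_one' := rfl
      map_mul' := fun _ _ => rfl }
  have hg : ∀ μ ν, g μ ν = (μ : ↥P →* ℂˣ) (r ν) := fun _ _ => rfl
  refine S.endgame hE (Zc N H) hAZ hBZ g ?_ ?_ ?_
  · intro x
    rw [hg]
    have h1 : (C.Psi B l0 (r x) : ↥P →* ℂˣ) (r x) = 1 := pair_self B l0 _
    rwa [hr] at h1
  · intro h hh x x'
    rw [hg, hg]
    have h1 : C.Psi B l0 (r (h • x')) = C.Psi B l0 ⟨_, C.conj_U h.2 (r x').2⟩ := by
      rw [hr, ← C.Psi_conj B l0 hh, hr]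
    rw [key _ _ h1]
    have h2 := C.act_coe h x (⟨h * r x' * (h : G)⁻¹, hPn.conj_mem _ (r x' : ↥P).2 h⟩ : ↥P)
    refine h2.trans ?_
    congr 1
    apply Subtype.ext
    change (h : G)⁻¹ * (h * (r x' : ↥P) * (h : G)⁻¹) * h = (r x' : ↥P)
    group
  · intro h1
    have hDn := C.normal B
    obtain ⟨μ, hμ1, hμ2⟩ := exists_lin (Dc P (A : Subgroup H)) (C.comm_mem B) hy0D
    apply hμ1
    have h2 : g ⟨μ, hμ2⟩ (C.Psi B l0 ⟨y0, hy0U⟩) = 1 := by rw [h1]; rfl
    rw [hg, key _ ⟨y0, hy0U⟩ (hr _)] at h2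
    exact h2

end

end Cfsg.Agent.H988.DG.Solv
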