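import Cfsg.Agent.H988.DG.SolvG
import Cfsg.Agent.H748.PalfyMain

/-!
# Two disjoint edges do not occur for solvable groups: induction (helper988)
-/

set_option autoImplicit false
set_option linter.unusedSectionVars false

namespace Cfsg.Agent.H988.DG.Solv

open Cfsg Cfsg.Agent.Characters.Core Cfsg.Agent.OddOrderCharacters.IndRes
  Cfsg.Agent.OddOrderCharacters.NormalInduced Cfsg.Agent.OddOrderCharacters.PF9.CliffGen
  Cfsg.Agent.H681.DegBasic
open Cfsg.Agent.H748.Palfy hiding caseA caseB step main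
open Cfsg.Agent.H273.Palfy (UniqueSylow)
open scoped commutatorElement

universe u v

section

variable {G : Type u} [Group G] [Finite G]

/-- the case of a minimal normal `t`-subgroup -/
theorem caseB (hZ : LemZ.{u, u}) (hI : IrrU.{u, u}) (hE : EndG.{u, u}) {t s a b : ℕ} [ht : Fact t.Prime]
    [hs : Fact s.Prime] [ha : Fact a.Prime] [hb : Fact b.Prime]
    (c : YC G t s a b) (N : Subgroup G) [hNn : N.Normal]
    (hN1 : N ≠ ⊥) (hmin : ∀ K : Subgroup G, K.Normal → K ≤ N → K = ⊥ ∨ K = N)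
    (hNt : ∀ x ∈ N, x ^ t = 1) (hNp : IsPGroup t N)
    (hq : ∀ d ∈ charDegrees (G ⧸ N), ¬ t ∣ d) : False := by
  classical
  have hsolv := c.solv
  let P0 : Sylow t G := default
  have hQ := ito_michler (X := G ⧸ N) inferInstance hq (P0.mapSurjective (QuotientGroup.mk'_surjective N))
  have hNP : N ≤ (P0 : Subgroup G) := hNp.le_sylow_of_normal P0
  have hPn : (P0 : Subgroup G).Normal := by
    have h1 : ((P0 : Subgroup G).map (QuotientGroup.mk' N)).Normal := hQ.1
    have h2 := h1.comap (QuotientGroup.mk' N)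
    rwa [Subgroup.comap_map_eq, QuotientGroup.ker_mk', sup_eq_left.2 hNP] at h2
  have hPcN : ∀ x ∈ (P0 : Subgroup G), ∀ y ∈ (P0 : Subgroup G), x * y * x⁻¹ * y⁻¹ ∈ N := by
    intro x hx y hy
    have h1 := hQ.2 (QuotientGroup.mk' N x) ⟨x, hx, rfl⟩ (QuotientGroup.mk' N y) ⟨y, hy, rfl⟩
    rw [← QuotientGroup.ker_mk' N, MonoidHom.mem_ker]
    rw [map_mul, map_mul, map_mul, map_inv, map_inv, h1]
    group
  have hcopidx : (Nat.card (P0 : Subgroup G)).Coprime (P0 : Subgroup G).index := by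
    obtain ⟨n, hn⟩ := IsPGroup.iff_card.1 P0.isPGroup'
    have h3 : Nat.card (P0 : Subgroup G) = t ^ n := hn
    rw [h3]
    exact ((Nat.Prime.coprime_iff_not_dvd ht.out).2 P0.not_dvd_index).pow_left n
  obtain ⟨H, hH⟩ := Subgroup.exists_right_complement'_of_coprime hcopidx
  have hcardH : Nat.card H = (P0 : Subgroup G).index := hH.symm.index_eq_card.symm
  have B : BX t (P0 : Subgroup G) N H :=
    { solv := c.solv
      hP := P0.isPGroup'
      hPH := hH.disjoint.eq_bot
      hPH' := hH.sup_eq_top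
      hcop := by rw [hcardH]; exact hcopidx
      hNP := hNP
      hPcN := hPcN
      hNz := central_of_min P0.isPGroup' hNP hN1 hmin
      hN1 := hN1
      hmin := hmin
      hNt := hNt
      hna := by
        by_contra hcon
        push Not at hcon
        exact false_of_sylow P0 hPn hcon c.dt }
  have uA := uniqueSylow_of hsolv N H (p := a) (B.not_dvd (c.not_a ht.out ha.out))
  have uB := uniqueSylow_of hsolv N H (p := b) (B.not_dvd (c.not_b ht.out hb.out))
  by_cases nA : letI := linAct N H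
      ∃ A : Sylow a H, ∃ h ∈ (A : Subgroup H), ∃ v : ↥N →* ℂˣ, h • v ≠ v
  · by_cases nB : letI := linAct N H
        ∃ A : Sylow b H, ∃ h ∈ (A : Subgroup H), ∃ v : ↥N →* ℂˣ, h • v ≠ v
    · -- the linear group lemma
      have hfin : Finite (↥N →* ℂˣ) := finite_lin
      have hnt : Nontrivial (↥N →* ℂˣ) := by
        rw [← Finite.one_lt_card_iff_nontrivial, card_lin B.hN]
        exact (Subgroup.one_lt_card_iff_ne_bot N).2 hN1
      obtain ⟨l, hl⟩ := exists_lin_ne_one B.hN hN1
      have hprim : ∀ k : ℕ, k ∣ (stab N H (fun n => (l n : ℂ))).relIndex H → ∀ x : ℕ, x.Prime → x ∣ k →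
          x = t ∨ x = s := by
        intro k hk x hx hxk
        obtain ⟨θ, hθ, hθl, hst⟩ := B.exists_theta l
        rw [← hst] at hk
        have h1 := B.mem_degrees hθ one_mem
        exact c.of_t ht.out h1 (dvd_mul_of_dvd_right (dvd_mul_of_dvd_right (B.dvd_degree hl hθ hθl) _) _) x hx
          (dvd_mul_of_dvd_left (hxk.trans hk) _)
      have pA := hprim _ (sylow_dvd_of_unique uA hl)
      have pB := hprim _ (sylow_dvd_of_unique uB hl)
      let _ := linAct N H
      exact hZ ↥H (↥N →* ℂˣ) a b t t s inferInstance c.ab (fun v => by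
          ext n
          have h1 : n ^ t = 1 := Subtype.ext (hNt n n.2)
          rw [MonoidHom.pow_apply, ← map_pow, h1, map_one]
          rfl) (lin_irr (Or.inr fun x => by
            have hx : x ∈ H ⊔ (P0 : Subgroup G) := by rw [sup_comm, B.hPH']; trivial
            obtain ⟨h, hh, y, hy, rfl⟩ := Subgroup.mem_sup_of_normal_right.1 hx
            refine ⟨h, hh, fun n hn => ?_⟩
            have h1 := B.hNz y hy n hn
            calc h * y * n * (h * y)⁻¹ = h * (y * n) * y⁻¹ * h⁻¹ := by group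
              _ = h * n * h⁻¹ := by rw [h1]; group) B.hN hmin) uA uB nA nB
            c.ta.symm c.sa.symm c.tb.symm c.sb.symm pA pB
    · have h1 := normal_of_trivial B.hN hN1 uB nB default
      exact caseII hI hE c.swap' B default
        ⟨h1.1, h1.2.1, h1.2.2, B.not_dvd_P hb.out c.tb.symm, c.db⟩ uA
  · have h1 := normal_of_trivial B.hN hN1 uA nA default
    exact caseII hI hE c B default
      ⟨h1.1, h1.2.1, h1.2.2, B.not_dvd_P ha.out c.ta.symm, c.da⟩ uB

end

/-- one step: a minimal normal subgroup `N` such that `t` divides no degree of `G / N` -/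
theorem step (hZ : LemZ.{u, u}) (hI : IrrU.{u, u}) (hE : EndG.{u, u}) {G : Type u} [Group G] [Finite G]
    {t s a b : ℕ} [ht : Fact t.Prime] [hs : Fact s.Prime] [ha : Fact a.Prime] [hb : Fact b.Prime]
    (c : YC G t s a b) (N : Subgroup G) [hNn : N.Normal]
    (hN1 : N ≠ ⊥) (hmin : ∀ K : Subgroup G, K.Normal → K ≤ N → K = ⊥ ∨ K = N)
    {ℓ : ℕ} [hℓ : Fact ℓ.Prime] (hNℓ : IsPGroup ℓ N) (hNc : IsMulCommutative N)
    (hq : ∀ d ∈ charDegrees (G ⧸ N), ¬ t ∣ d) : False := by
  have hN : ∀ x ∈ N, ∀ y ∈ N, x * y = y * x := by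
    intro x hx y hy
    exact congrArg Subtype.val (hNc.is_comm.comm (⟨x, hx⟩ : N) ⟨y, hy⟩)
  -- exponent
  have hexp : ∀ x ∈ N, x ^ ℓ = 1 := by
    let K : Subgroup G :=
      { carrier := {x | x ∈ N ∧ x ^ ℓ = 1}
        one_mem' := ⟨N.one_mem, one_pow _⟩
        mul_mem' := by
          rintro x y ⟨hx, hx'⟩ ⟨hy, hy'⟩
          refine ⟨N.mul_mem hx hy, ?_⟩
          rw [(show Commute x y from hN x hx y hy).mul_pow, hx', hy', one_mul]
        inv_mem' := by
          rintro x ⟨hx, hx'⟩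
          exact ⟨N.inv_mem hx, by rw [inv_pow, hx', inv_one]⟩ }
    have hKn : K.Normal := by
      constructor
      rintro x ⟨hx, hx'⟩ g
      refine ⟨hNn.conj_mem x hx g, ?_⟩
      rw [conj_pow, hx', mul_one, mul_inv_cancel]
    rcases hmin K hKn (fun x hx => hx.1) with h | h
    · exfalso
      have hdvd : ℓ ∣ Nat.card N := by
        obtain ⟨k, hk⟩ := IsPGroup.iff_card.1 hNℓ
        rw [hk]
        have : k ≠ 0 := by
          rintro rfl
          rw [pow_zero] at hk
          exact hN1 (Subgroup.card_eq_one.1 hk)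
        exact dvd_pow_self ℓ this
      obtain ⟨x, hx⟩ := exists_prime_orderOf_dvd_card' (G := N) ℓ hdvd
      have h1 : (x : G) ∈ K := ⟨x.2, by
        have := pow_orderOf_eq_one x
        rw [hx] at this
        exact congrArg Subtype.val this⟩
      rw [h, Subgroup.mem_bot] at h1
      have h2 : x = 1 := Subtype.ext h1
      rw [h2, orderOf_one] at hx
      exact hℓ.out.one_lt.ne hx
    · intro x hx
      have h1 : x ∈ K := by rw [h]; exact hx
      exact h1.2
  by_cases htl : ℓ = t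
  · subst htl
    exact caseB hZ hI hE c N hN1 hmin hexp hNℓ hq
  · refine caseA hZ c N hN hN1 hmin (ℓ := ℓ) hexp ?_ hq
    intro hd
    obtain ⟨n, hn⟩ := IsPGroup.iff_card.1 hNℓ
    rw [hn] at hd
    exact htl ((Nat.prime_dvd_prime_iff_eq ht.out hℓ.out).1 (ht.out.dvd_of_dvd_pow hd)).symm

theorem no_YC (hZ : LemZ.{u, u}) (hI : IrrU.{u, u}) (hE : EndG.{u, u}) (n : ℕ) :
    ∀ (G : Type u) [Group G] [Finite G], Nat.card G ≤ n →
    ∀ {t s a b : ℕ} [Fact t.Prime] [Fact s.Prime] [Fact a.Prime] [Fact b.Prime], YC G t s a b → False := by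
  induction n with
  | zero =>
    intro G _ _ hn
    exact absurd hn (by have := Nat.card_pos (α := G); omega)
  | succ n ih =>
    intro G _ _ hn t s a b ht hs ha hb c
    have hsolv := c.solv
    have hnt : Nontrivial G := by
      by_contra hcon
      rw [not_nontrivial_iff_subsingleton] at hcon
      obtain ⟨d, hd, htd⟩ := c.dt
      have h1 := dvd_card hd
      rw [Nat.card_of_subsingleton (1 : G)] at h1
      exact ht.out.one_lt.ne' (Nat.dvd_one.1 (htd.trans h1))
    obtain ⟨ℓ, N, hℓ, hNn, hNℓ, hNc, hN1, hmin⟩ := Solvable.Carter.exists_min_normal G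
    have : Fact ℓ.Prime := ⟨hℓ⟩
    by_cases ht' : ∀ d ∈ charDegrees (G ⧸ N), ¬ t ∣ d
    · exact step hZ hI hE c N hN1 hmin hNℓ hNc ht'
    by_cases hs' : ∀ d ∈ charDegrees (G ⧸ N), ¬ s ∣ d
    · exact step hZ hI hE c.swap N hN1 hmin hNℓ hNc hs'
    by_cases ha' : ∀ d ∈ charDegrees (G ⧸ N), ¬ a ∣ d
    · exact step hZ hI hE c.rot N hN1 hmin hNℓ hNc ha'
    by_cases hb' : ∀ d ∈ charDegrees (G ⧸ N), ¬ b ∣ d
    · exact step hZ hI hE c.rot.swap N hN1 hmin hNℓ hNc hb'
    push Not at ht' hs' ha' hb'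
    have hcard : Nat.card (G ⧸ N) ≤ n := by
      have h1 := Subgroup.card_eq_card_quotient_mul_card_subgroup N
      have h2 : 1 < Nat.card N := by
        rw [Subgroup.one_lt_card_iff_ne_bot]; exact hN1
      have h3 : 0 < Nat.card (G ⧸ N) := Nat.card_pos
      nlinarith
    have hq : ∀ d ∈ charDegrees (G ⧸ N), d ∈ charDegrees G := fun d hd =>
      charDegrees_comp (QuotientGroup.mk' N) (QuotientGroup.mk'_surjective N) hd
    exact ih (G ⧸ N) hcard
      ⟨inferInstance, ht', hs', ha', hb', fun d hd => c.deg d (hq d hd), c.ts, c.ab, c.ta, c.tb, c.sa, c.sb⟩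

end Cfsg.Agent.H988.DG.Solv
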